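import Cfsg.Agent.OreSL.Core

/-!
Product relations for single cyclic blocks and the chaining calculus.
-/

set_option autoImplicit false
set_option linter.style.haveILetI false

namespace CfsgLib.OreSL

open Polynomial

universe u

variable {F : Type u} [Field F]

/-- An upper bidiagonal matrix. -/
def bidiag (k : ℕ) (d t : ℕ → F) : Matrix (Fin k) (Fin k) F :=
  Matrix.of fun i j => if i = j then d i else if (i : ℕ) + 1 = j then t i else 0

theorem bidiag_up (k : ℕ) (d t : ℕ → F) (i j : Fin k) (h : (j : ℕ) < i) : bidiag k d t i j = 0 := by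
  simp only [bidiag, Matrix.of_apply]
  rw [if_neg (fun he => by rw [he] at h; omega), if_neg (by omega)]

theorem bidiag_diag (k : ℕ) (d t : ℕ → F) (i : Fin k) : bidiag k d t i i = d i := by
  simp [bidiag]

theorem bidiag_det (k : ℕ) (d t : ℕ → F) : (bidiag k d t).det = ∏ i : Fin k, d i := by
  rw [Matrix.det_of_isUpperTriangular fun i j h => bidiag_up k d t i j h]
  exact Finset.prod_congr rfl fun i _ => bidiag_diag k d t i

theorem bidiag_apply (k : ℕ) (d t : ℕ → F) (x : Fin k → F) (i : Fin k) :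
    Matrix.toLin' (bidiag k d t) x i =
      d i * x i + if h : (i : ℕ) + 1 < k then t i * x ⟨i + 1, h⟩ else 0 := by
  rw [Matrix.toLin'_apply, Matrix.mulVec, dotProduct]
  have hsplit : ∀ j, bidiag k d t i j * x j = (if i = j then d i * x j else 0) +
      (if (i : ℕ) + 1 = j then t i * x j else 0) := by
    intro j
    simp only [bidiag, Matrix.of_apply]
    rcases eq_or_ne i j with rfl | h
    · simp
    · rw [if_neg h, if_neg h]
      split <;> simp
  rw [Finset.sum_congr rfl fun j _ => hsplit j, Finset.sum_add_distrib, Finset.sum_ite_eq Finset.univ i]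
  simp only [Finset.mem_univ, if_true]
  congr 1
  split
  next h =>
    rw [Finset.sum_eq_single (⟨i + 1, h⟩ : Fin k)]
    · simp
    · intro j _ hj
      rw [if_neg fun he => hj (Fin.ext he.symm)]
    · simp
  next h =>
    refine Finset.sum_eq_zero fun j _ => ?_
    rw [if_neg fun he => h (by omega)]

theorem bidiag_quad_surj (k : ℕ) (d t : ℕ → F) (a b : F) (h : ∀ i < k, d i ^ 2 - a * d i + b ≠ 0) (v : Fin k → F) :
    ∃ w, aeval (Matrix.toLin' (bidiag k d t)) (X ^ 2 - C a * X + C b) w = v := by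
  set R := bidiag k d t with hR
  set M := R * R - a • R + b • (1 : Matrix (Fin k) (Fin k) F) with hM
  have hev : aeval (Matrix.toLin' R) (X ^ 2 - C a * X + C b) = Matrix.toLin' M := by
    refine LinearMap.ext fun x => ?_
    simp [hM, pow_two, Module.End.mul_apply, Module.algebraMap_end_apply, Matrix.add_mulVec, Matrix.sub_mulVec,
      Matrix.smul_mulVec, Matrix.mulVec_mulVec]
  have hdiag : ∀ i : Fin k, M i i = d i ^ 2 - a * d i + b := by
    intro i
    have h1 : (R * R) i i = d i ^ 2 := by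
      rw [Matrix.mul_apply, Finset.sum_eq_single i]
      · rw [hR, bidiag_diag, pow_two]
      · intro j _ hj
        rcases lt_or_gt_of_ne hj with h2 | h2
        · rw [hR, bidiag_up k d t i j h2, zero_mul]
        · rw [hR, bidiag_up k d t j i h2, mul_zero]
      · simp
    rw [hM, Matrix.add_apply, Matrix.sub_apply, Matrix.smul_apply, Matrix.smul_apply, h1, hR, bidiag_diag,
      Matrix.one_apply_eq]
    simp
  have hRu : R.BlockTriangular id := fun i j h => bidiag_up k d t i j h
  have hu : M.BlockTriangular id :=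
    ((hRu.mul hRu).sub (fun i j h => by simp [hRu h])).add (fun i j h => by
      simp [Matrix.one_apply_ne (ne_of_gt (show j < i from h))])
  have hdet : M.det ≠ 0 := by
    rw [Matrix.det_of_isUpperTriangular hu, Finset.prod_ne_zero_iff]
    exact fun i _ => (hdiag i) ▸ h i i.2
  rw [hev]
  exact Matrix.mulVec_surjective_iff_isUnit.2 ((Matrix.isUnit_iff_isUnit_det _).2 (isUnit_iff_ne_zero.2 hdet)) v

theorem cls_jordan (k : ℕ) (c : F) (d t : ℕ → F) (hd : ∀ i < k, d i = c) (ht : ∀ i, i + 1 < k → t i = 1) :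
    cls (Matrix.toLin' (bidiag k d t)) = comp ((X - C c) ^ k) := by
  have hne : ((X - C c) ^ k : F[X]) ≠ 0 := pow_ne_zero _ (X_sub_C_ne_zero c)
  rcases Nat.eq_zero_or_pos k with rfl | hk
  · rw [pow_zero, comp_one]
    exact cls_of_subsingleton _
  set T := Matrix.toLin' (bidiag k d t) with hT
  set v : Fin k → F := Pi.single ⟨k - 1, by omega⟩ 1 with hv
  have hstep : ∀ x, aeval T (X - C c) x = fun i : Fin k => if h : (i : ℕ) + 1 < k then x ⟨i + 1, h⟩ else 0 := by
    intro x
    ext i
    simp only [map_sub, aeval_X, aeval_C, LinearMap.sub_apply, Module.algebraMap_end_apply, Pi.sub_apply,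
      Pi.smul_apply, smul_eq_mul]
    rw [hT, bidiag_apply, hd i i.2]
    split
    next h => rw [ht i h]; ring
    next h => ring
  have hpow : ∀ j, aeval T ((X - C c) ^ j) v = fun i : Fin k => if (i : ℕ) + j = k - 1 then 1 else 0 := by
    intro j
    induction j with
    | zero =>
      ext i
      simp [hv, Pi.single_apply, Fin.ext_iff]
    | succ j ih =>
      rw [pow_succ', map_mul, Module.End.mul_apply, ih, hstep]
      ext i
      by_cases h : (i : ℕ) + 1 < k
      · rw [dif_pos h]
        simp only [add_assoc, add_comm 1 j]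
      · rw [dif_neg h, if_neg (by omega)]
  refine cls_eq_comp T hne (by rw [Module.finrank_pi, Fintype.card_fin, natDegree_pow, natDegree_X_sub_C, mul_one])
    v ?_ fun w => ?_
  · rw [hpow]
    ext i
    rw [if_neg (by omega)]
    rfl
  · refine ⟨∑ i : Fin k, w i • (X - C c) ^ (k - 1 - (i : ℕ)), ?_⟩
    rw [map_sum, LinearMap.sum_apply]
    ext j
    simp only [map_smul, LinearMap.smul_apply, hpow, Finset.sum_apply, Pi.smul_apply, smul_eq_mul, mul_ite, mul_one,
      mul_zero]
    rw [Finset.sum_eq_single j]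
    · rw [if_pos (by omega)]
    · intro i _ hi
      rw [if_neg fun he => hi (Fin.ext (by omega))]
    · simp

theorem cls_jordan_add (k : ℕ) (c β : F) :
    cls (Matrix.toLin' (bidiag (k + 1) (fun i => if i < k then c else β) (fun i => if i + 1 < k then 1 else 0))) =
      comp ((X - C c) ^ k) + sc β := by
  rw [← cls_jordan k c (fun _ => c) (fun _ => 1) (fun _ _ => rfl) (fun _ _ => rfl), sc, cls_add, eq_comm, cls_eq_iff]
  refine ⟨{ toFun := fun x => Fin.snoc x.1 x.2
            invFun := fun x => (fun i => x i.castSucc, x (Fin.last k))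
            map_add' := fun x y => funext fun i => by refine Fin.lastCases ?_ ?_ i <;> simp
            map_smul' := fun a x => funext fun i => by refine Fin.lastCases ?_ ?_ i <;> simp
            left_inv := fun x => by simp
            right_inv := fun x => funext fun i => by refine Fin.lastCases ?_ ?_ i <;> simp }, fun x => ?_⟩
  funext i
  simp only [LinearEquiv.coe_mk, LinearMap.coe_mk, AddHom.coe_mk, LinearMap.prodMap_apply]
  refine Fin.lastCases ?_ (fun i => ?_) i
  · rw [Fin.snoc_last, bidiag_apply, Fin.snoc_last]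
    simp
  · rw [Fin.snoc_castSucc, bidiag_apply, bidiag_apply, Fin.snoc_castSucc]
    have hi : (i.castSucc : ℕ) + 1 < k + 1 := by simp
    rw [dif_pos hi]
    simp only [Fin.val_castSucc, if_pos i.2]
    by_cases h : (i : ℕ) + 1 < k
    · rw [dif_pos h, if_pos h]
      congr 2
      exact (Fin.snoc_castSucc (α := fun _ => F) x.2 x.1 ⟨i + 1, h⟩).symm
    · rw [dif_neg h, if_neg h, zero_mul]

/-- A class that accepts an arbitrary cyclic product against triangular-plus-quadratic factors. -/
def Sup (a : Cls F) (k : ℕ) (dA : F) : Prop :=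
  ∀ (d t : ℕ → F) (A B : F) (f : F[X]), (∀ i < k, d i ≠ 0) → (∀ x : F, x ^ 2 - A * x + B ≠ 0) →
    f.Monic → f.natDegree = k + 2 → (-1) ^ (k + 2) * f.coeff 0 = dA * ((∏ i : Fin k, d i) * B) →
    Prd a (cls (Matrix.toLin' (bidiag k d t)) + comp (X ^ 2 - C A * X + C B)) (comp f)

theorem sup_big {g : F[X]} (hg : g.Monic) {k : ℕ} (hdeg : g.natDegree = k + 2) (hk : 1 ≤ k) (hg0 : g.coeff 0 ≠ 0) :
    Sup (comp g) k ((-1) ^ g.natDegree * g.coeff 0) := by
  intro d t A B f hd hroot hf hfd hf0
  haveI := finAdjoin hg.ne_zero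
  set L := LinearMap.mulLeft F (AdjoinRoot.root g)
  let pb := AdjoinRoot.powerBasis hg.ne_zero
  have hdim : pb.dim = k + 2 := (AdjoinRoot.powerBasis_dim hg.ne_zero).trans hdeg
  let bas := pb.basis.reindex (finCongr hdim)
  have hdetL : LinearMap.det L = (-1) ^ g.natDegree * g.coeff 0 := by
    rw [← det_comp hg, comp_eq hg.ne_zero, detC_cls]
  rw [comp_eq hg.ne_zero]
  refine prd_core k hk L (fun i => AdjoinRoot.root g ^ i) bas ?_ ?_ ?_ _ (fun i j h => bidiag_up k d t i j h)
    (fun i => (bidiag_diag k d t i).symm ▸ hd i i.2) A B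
    (bidiag_quad_surj k d t A B fun i _ => hroot _) f hf hfd ?_
  · intro i
    simp [bas, pb]
  · intro i _
    exact (pow_succ' (AdjoinRoot.root g) i).symm
  · rw [hdetL]
    exact mul_ne_zero (pow_ne_zero _ (neg_ne_zero.2 one_ne_zero)) hg0
  · rw [hdetL, bidiag_det, hf0]

theorem sup_pair {g : F[X]} (hg : g.Monic) (hdeg : g.natDegree = 2) (hg0 : g.coeff 0 ≠ 0) {r : F} (hr : r ≠ 0) :
    Sup (comp g + sc r) 1 ((-1) ^ g.natDegree * g.coeff 0 * r) := by
  intro d t A B f hd hroot hf hfd hf0
  haveI := finAdjoin hg.ne_zero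
  let pb := AdjoinRoot.powerBasis hg.ne_zero
  have hdim : pb.dim = 2 := (AdjoinRoot.powerBasis_dim hg.ne_zero).trans hdeg
  let bas0 : Module.Basis (Fin (1 + 2)) F (AdjoinRoot g × F) :=
    ((pb.basis.reindex (finCongr hdim)).prod (Module.Basis.singleton (Fin 1) F)).reindex
      (finSumFinEquiv.trans (finCongr (show 2 + 1 = 1 + 2 from rfl)))
  set L := LinearMap.prodMap (LinearMap.mulLeft F (AdjoinRoot.root g)) (r • LinearMap.id : Module.End F F)
  have hdetL : LinearMap.det L = (-1) ^ g.natDegree * g.coeff 0 * r := by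
    rw [← det_comp hg, comp_eq hg.ne_zero, ← det_sc r, sc, ← detC_add, cls_add, detC_cls]
  rw [sc, comp_eq hg.ne_zero, cls_add]
  refine prd_core 1 le_rfl L
    (fun i => if i = 0 then (1, 0) else if i = 1 then (AdjoinRoot.root g, 0) else (0, 1)) bas0 ?_ ?_ ?_ _
    (fun i j h => bidiag_up 1 d t i j h) (fun i => (bidiag_diag 1 d t i).symm ▸ hd i i.2) A B
    (bidiag_quad_surj 1 d t A B fun i _ => hroot _) f hf hfd ?_
  · intro i
    obtain ⟨x, rfl⟩ := (finSumFinEquiv.trans (finCongr (show 2 + 1 = 1 + 2 from rfl))).surjective i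
    rw [Module.Basis.reindex_apply, Equiv.symm_apply_apply]
    rcases x with x | x
    · rw [show (((finSumFinEquiv.trans (finCongr (show 2 + 1 = 1 + 2 from rfl))) (Sum.inl x) : Fin (1 + 2)) : ℕ) =
        (x : ℕ) from rfl]
      fin_cases x <;> simp [pb]
    · rw [show (((finSumFinEquiv.trans (finCongr (show 2 + 1 = 1 + 2 from rfl))) (Sum.inr x) : Fin (1 + 2)) : ℕ) =
        2 + (x : ℕ) from rfl]
      fin_cases x
      simp [pb]
  · intro i hi
    obtain rfl : i = 0 := by omega
    simp [L]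
  · rw [hdetL]
    exact mul_ne_zero (mul_ne_zero (pow_ne_zero _ (neg_ne_zero.2 one_ne_zero)) hg0) hr
  · rw [hdetL, bidiag_det, hf0]

theorem exists_quad [Finite F] {b : F} (hb : b ≠ 0) : ∃ a : F, ∀ x : F, x ^ 2 - a * x + b ≠ 0 := by
  classical
  haveI := Fintype.ofFinite F
  by_contra h
  push Not at h
  have hsurj : Function.Surjective (fun x : {x : F // x ≠ 0} => (x : F) + b / x) := by
    intro a
    obtain ⟨x, hx⟩ := h a
    have hx0 : x ≠ 0 := fun hz => hb (by simpa [hz] using hx)
    exact ⟨⟨x, hx0⟩, by field_simp; linear_combination hx⟩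
  have h1 := Fintype.card_le_of_surjective _ hsurj
  have h2 : Fintype.card {x : F // x ≠ 0} < Fintype.card F :=
    Fintype.card_subtype_lt (x := (0 : F)) (by simp)
  omega

theorem quad_irreducible {a b : F} (h : ∀ x : F, x ^ 2 - a * x + b ≠ 0) :
    Irreducible (X ^ 2 - C a * X + C b : F[X]) := by
  rw [(quad_monic a b).irreducible_iff_roots_eq_zero_of_degree_le_three (by rw [quad_natDegree])
    (by rw [quad_natDegree]; omega)]
  refine Multiset.eq_zero_iff_forall_notMem.2 fun x hx => ?_
  have := (mem_roots (quad_monic a b).ne_zero).1 hx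
  exact h x (by simpa using this)

theorem linear_coprime_quad {a b : F} (h : ∀ x : F, x ^ 2 - a * x + b ≠ 0) (c : F) :
    IsCoprime (X - C c) (X ^ 2 - C a * X + C b : F[X]) :=
  (irreducible_X_sub_C c).coprime_iff_not_dvd.2 fun hd => h c (by simpa using dvd_iff_isRoot.1 hd)

/-- Splitting of the standard product polynomial. -/
theorem comp_split (j : ℕ) {c x a b : F} (hcx : j ≠ 0 → c ≠ x) (h : ∀ y : F, y ^ 2 - a * y + b ≠ 0) :
    comp ((X - C c) ^ j * (X - C x) * (X ^ 2 - C a * X + C b)) =
      comp ((X - C c) ^ j) + sc x + comp (X ^ 2 - C a * X + C b) := by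
  have hco : IsCoprime ((X - C c : F[X]) ^ j) (X - C x) := by
    rcases Nat.eq_zero_or_pos j with rfl | hj
    · rw [pow_zero]; exact isCoprime_one_left
    · exact (isCoprime_X_sub_C_of_isUnit_sub (sub_ne_zero.2 (hcx (by omega))).isUnit).pow_left
  rw [comp_mul (mul_ne_zero (pow_ne_zero _ (X_sub_C_ne_zero c)) (X_sub_C_ne_zero x)) (quad_monic a b).ne_zero
      (IsCoprime.mul_left (linear_coprime_quad h c).pow_left (linear_coprime_quad h x)),
    comp_mul (pow_ne_zero _ (X_sub_C_ne_zero c)) (X_sub_C_ne_zero x) hco, comp_X_sub_C]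

theorem det_comp_pow (c : F) (j : ℕ) : detC (comp ((X - C c) ^ j)) = c ^ j := by
  rw [det_comp ((monic_X_sub_C c).pow j), natDegree_pow, natDegree_X_sub_C, mul_one, coeff_zero_eq_eval_zero,
    eval_pow, eval_sub, eval_X, eval_C, zero_sub, ← mul_pow]
  simp

theorem det_comp_quad (a b : F) : detC (comp (X ^ 2 - C a * X + C b)) = b := by
  rw [det_comp (quad_monic a b), quad_natDegree, quad_coeff_zero]
  ring

/-- Every pair of determinants is attained. -/
def Full (a : Cls F) : Prop := ∀ s t : F, s ≠ 0 → t ≠ 0 → Com a s t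

/-- A chain link multiplying the distinguished eigenvalue by `d`. -/
def Tok (a : Cls F) (d : F) : Prop :=
  d ≠ 0 ∧ ∀ β : F, β ≠ 0 → ∃ r : Cls F, detC r ≠ 0 ∧ Prd a (r + sc β) (r + sc (d * β))

/-- A chain link with adjustable determinant. -/
def Flex (a : Cls F) (d : F) : Prop :=
  d ≠ 0 ∧ ∀ β t : F, β ≠ 0 → t ≠ 0 → ∃ r : Cls F, detC r = t ∧ Prd a (r + sc β) (r + sc (d * β))

theorem Flex.tok {a : Cls F} {d : F} (h : Flex a d) : Tok a d :=
  ⟨h.1, fun β hβ => let ⟨r, hr, hp⟩ := h.2 β 1 hβ one_ne_zero; ⟨r, by rw [hr]; exact one_ne_zero, hp⟩⟩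

theorem Tok.add {a a' : Cls F} {d d' : F} (h : Tok a d) (h' : Tok a' d') : Tok (a + a') (d * d') := by
  refine ⟨mul_ne_zero h.1 h'.1, fun β hβ => ?_⟩
  obtain ⟨r, hr, hp⟩ := h.2 β hβ
  obtain ⟨r', hr', hp'⟩ := h'.2 (d * β) (mul_ne_zero h.1 hβ)
  refine ⟨r + r' + sc (d * β), ?_, ?_⟩
  · rw [detC_add, detC_add, det_sc]
    exact mul_ne_zero (mul_ne_zero hr hr') (mul_ne_zero h.1 hβ)
  · convert hp.add hp' using 1
    · abel
    · rw [show d' * (d * β) = d * d' * β by ring]; abel

theorem Flex.add {a a' : Cls F} {d d' : F} (h : Flex a d) (h' : Tok a' d') : Flex (a + a') (d * d') := by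
  refine ⟨mul_ne_zero h.1 h'.1, fun β t hβ ht => ?_⟩
  obtain ⟨r', hr', hp'⟩ := h'.2 (d * β) (mul_ne_zero h.1 hβ)
  have hne : detC r' * (d * β) ≠ 0 := mul_ne_zero hr' (mul_ne_zero h.1 hβ)
  obtain ⟨r, hr, hp⟩ := h.2 β (t / (detC r' * (d * β))) hβ (div_ne_zero ht hne)
  refine ⟨r + r' + sc (d * β), ?_, ?_⟩
  · rw [detC_add, detC_add, det_sc, hr, mul_assoc, div_mul_cancel₀ _ hne]
  · convert hp.add hp' using 1
    · abel
    · rw [show d' * (d * β) = d * d' * β by ring]; abel

theorem Flex.full {a : Cls F} (h : Flex a 1) : Full a := by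
  intro s t hs ht
  obtain ⟨r, hr, hp⟩ := h.2 1 t one_ne_zero ht
  rw [one_mul] at hp
  have := hp.com ((cent_sc 1).add' r) hs
  rwa [detC_add, det_sc, mul_one, hr] at this

theorem prd_sc (r β : F) : Prd (sc r) (sc β) (sc (r * β)) := by
  rw [sc, sc, sc, show ((r * β) • LinearMap.id : Module.End F F) = (r • LinearMap.id) * (β • LinearMap.id) by
    ext; simp [mul_comm]]
  exact Prd.mk' _ _

theorem tok_sc {r : F} (hr : r ≠ 0) : Tok (sc r) r := by
  refine ⟨hr, fun β _ => ⟨0, by rw [detC_zero]; exact one_ne_zero, ?_⟩⟩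
  rw [zero_add, zero_add]
  exact prd_sc r β

theorem exists_avoid [Fintype F] (h3 : 3 ≤ Fintype.card F) (x : F) : ∃ c : F, c ≠ 0 ∧ c ≠ x := by
  classical
  by_contra h
  push Not at h
  have hsub : (Finset.univ : Finset F) ⊆ {0, x} := fun c _ => by
    by_cases hc : c = 0
    · simp [hc]
    · simp [h c hc]
  have h1 := (Finset.card_le_card hsub).trans Finset.card_le_two
  rw [Finset.card_univ] at h1
  omega

theorem flex_of_sup [Fintype F] (h3 : 3 ≤ Fintype.card F) {a : Cls F} {j : ℕ} {dA : F} (hdA : dA ≠ 0)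
    (h : Sup a (j + 1) dA) : Flex a dA := by
  refine ⟨hdA, fun β t hβ ht => ?_⟩
  obtain ⟨c, hc, hcx⟩ := exists_avoid h3 (dA * β)
  have hb : t / c ^ j ≠ 0 := div_ne_zero ht (pow_ne_zero _ hc)
  obtain ⟨A, hroot⟩ := exists_quad hb
  set Q := (X ^ 2 - C A * X + C (t / c ^ j) : F[X]) with hQ
  refine ⟨comp ((X - C c) ^ j) + comp Q, ?_, ?_⟩
  · rw [detC_add, det_comp_pow, det_comp_quad, mul_div_cancel₀ _ (pow_ne_zero _ hc)]
  have hmon : ((X - C c) ^ j * (X - C (dA * β)) * Q).Monic :=
    (((monic_X_sub_C c).pow j).mul (monic_X_sub_C _)).mul (quad_monic _ _)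
  have hdeg : ((X - C c) ^ j * (X - C (dA * β)) * Q).natDegree = j + 1 + 2 := by
    rw [(((monic_X_sub_C c).pow j).mul (monic_X_sub_C _)).natDegree_mul (quad_monic _ _),
      ((monic_X_sub_C c).pow j).natDegree_mul (monic_X_sub_C _), natDegree_pow, natDegree_X_sub_C,
      natDegree_X_sub_C, quad_natDegree, mul_one]
  have := h (fun i => if i < j then c else β) (fun i => if i + 1 < j then 1 else 0) A (t / c ^ j) _
    (fun i _ => by show (if i < j then c else β) ≠ 0; split <;> assumption) hroot hmon hdeg ?_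
  · rw [cls_jordan_add, comp_split j (fun _ => hcx) hroot] at this
    convert this using 1 <;> abel
  · rw [Fin.prod_univ_castSucc]
    simp only [Fin.val_castSucc, Fin.is_lt, if_true, Fin.val_last, lt_irrefl, if_false, Finset.prod_const,
      Finset.card_univ, Fintype.card_fin, coeff_zero_eq_eval_zero, eval_mul, eval_pow, eval_sub, eval_X, eval_C,
      hQ, eval_add, zero_sub, neg_pow c j, pow_add, pow_one]
    ring_nf
    simp

/-- The two-by-two link. -/
theorem prd_plane (a : F) {d β c : F} (hc : c ≠ 0) (hcβ : c ≠ β) (hcx : c ≠ d * β) :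
    Prd (comp (X ^ 2 - C a * X + C d)) (sc c + sc β) (sc c + sc (d * β)) := by
  let u := c + d * β - a * β
  let Z : Module.End F (F × F) :=
    { toFun := fun x => (c * x.1 + u * x.2, β * x.2)
      map_add' := fun x y => by ext <;> simp <;> ring
      map_smul' := fun r x => by ext <;> simp <;> ring }
  have hbc : β - c ≠ 0 := sub_ne_zero.2 (Ne.symm hcβ)
  have hZ : cls Z = sc c + sc β := by
    rw [sc, sc, cls_add, eq_comm, cls_eq_iff]
    refine ⟨{ toFun := fun x => (x.1 + u / (β - c) * x.2, x.2)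
              invFun := fun x => (x.1 - u / (β - c) * x.2, x.2)
              map_add' := fun x y => by ext <;> simp <;> ring
              map_smul' := fun r x => by ext <;> simp <;> ring
              left_inv := fun x => by ext <;> simp
              right_inv := fun x => by ext <;> simp }, fun x => ?_⟩
    ext
    · simp [Z]
      field_simp
      ring
    · simp [Z]
  have hX : cls (planeMap a d * Z) = sc c + sc (d * β) := by
    rw [← comp_X_sub_C c, ← comp_X_sub_C (d * β), ← comp_mul (X_sub_C_ne_zero _) (X_sub_C_ne_zero _)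
      (isCoprime_X_sub_C_of_isUnit_sub (sub_ne_zero.2 hcx).isUnit)]
    refine cls_eq_comp _ (mul_ne_zero (X_sub_C_ne_zero _) (X_sub_C_ne_zero _)) ?_ (1, 0) ?_
      fun w => ⟨C w.1 + C (w.2 / c) * X, ?_⟩
    · rw [Module.finrank_prod, Module.finrank_self, natDegree_mul (X_sub_C_ne_zero _) (X_sub_C_ne_zero _),
        natDegree_X_sub_C, natDegree_X_sub_C]
    · ext
      · simp [Z, u, planeMap, Module.End.mul_apply, Module.algebraMap_end_apply]
        ring
      · simp [Z, u, planeMap, Module.End.mul_apply, Module.algebraMap_end_apply]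
        ring
    · ext <;> simp [Z, planeMap, Module.End.mul_apply, Module.algebraMap_end_apply, div_mul_cancel₀ _ hc]
  rw [← cls_planeMap, ← hZ, ← hX]
  exact Prd.mk' _ _

theorem quad_form {g : F[X]} (hg : g.Monic) (hd : g.natDegree = 2) :
    g = X ^ 2 - C (-g.coeff 1) * X + C (g.coeff 0) := by
  conv_lhs => rw [hg.as_sum, hd]
  simp [Finset.sum_range_succ]
  ring

theorem tok_plane [Fintype F] (h4 : 4 ≤ Fintype.card F) {g : F[X]} (hg : g.Monic) (hd : g.natDegree = 2)
    (hg0 : g.coeff 0 ≠ 0) : Tok (comp g) (g.coeff 0) := by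
  classical
  refine ⟨hg0, fun β hβ => ?_⟩
  obtain ⟨c, hc⟩ : ∃ c : F, c ∉ ({0, β, g.coeff 0 * β} : Finset F) := by
    by_contra h
    push Not at h
    have h1 := (Finset.card_le_card (fun x (_ : x ∈ Finset.univ) => h x)).trans Finset.card_le_three
    rw [Finset.card_univ] at h1
    omega
  simp only [Finset.mem_insert, Finset.mem_singleton, not_or] at hc
  refine ⟨sc c, by rw [det_sc]; exact hc.1, ?_⟩
  conv => arg 1; rw [quad_form hg hd]
  exact prd_plane _ hc.1 hc.2.1 hc.2.2

end CfsgLib.OreSL
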