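import Mathlib

/-!
Similarity classes of endomorphisms of finite-dimensional vector spaces, with direct sums,
and the commutator relations used for Ore's conjecture in the special linear groups.
-/

set_option autoImplicit false

namespace CfsgLib.OreSL

universe u v w

variable {F : Type u} [Field F]

/-- An endomorphism of a coordinate space. -/
abbrev Op (F : Type u) [Field F] : Type u := Σ n : ℕ, Module.End F (Fin n → F)

/-- Similarity. -/
def OpRel (a b : Op F) : Prop :=
  ∃ e : (Fin a.1 → F) ≃ₗ[F] (Fin b.1 → F), ∀ x, e (a.2 x) = b.2 (e x)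

/-- Similarity as an equivalence relation. -/
def opSetoid (F : Type u) [Field F] : Setoid (Op F) where
  r := OpRel
  iseqv :=
    { refl := fun a => ⟨LinearEquiv.refl F _, fun x => rfl⟩
      symm := fun {a b} ⟨e, h⟩ => ⟨e.symm, fun x => by
        apply e.injective
        rw [h, e.apply_symm_apply, e.apply_symm_apply]⟩
      trans := fun {a b c} ⟨e, h⟩ ⟨e', h'⟩ => ⟨e ≪≫ₗ e', fun x => by simp [h, h']⟩ }

/-- Similarity classes. -/
def Cls (F : Type u) [Field F] : Type u := Quotient (opSetoid F)

section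

variable {V : Type v} [AddCommGroup V] [Module F V] [FiniteDimensional F V]
variable {W : Type w} [AddCommGroup W] [Module F W] [FiniteDimensional F W]

/-- The class of an endomorphism. -/
noncomputable def cls (f : Module.End F V) : Cls F :=
  Quotient.mk (opSetoid F) ⟨Module.finrank F V, (Module.finBasis F V).equivFun.conj f⟩

theorem cls_eq_iff (f : Module.End F V) (g : Module.End F W) :
    cls f = cls g ↔ ∃ e : V ≃ₗ[F] W, ∀ x, e (f x) = g (e x) := by
  have hV := (Module.finBasis F V).equivFun
  constructor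
  · intro h
    obtain ⟨e, he⟩ := Quotient.exact h
    refine ⟨(Module.finBasis F V).equivFun ≪≫ₗ e ≪≫ₗ (Module.finBasis F W).equivFun.symm, fun x => ?_⟩
    have h1 := he ((Module.finBasis F V).equivFun x)
    dsimp only at h1
    rw [LinearEquiv.conj_apply, LinearEquiv.conj_apply] at h1
    simp only [LinearMap.coe_comp, LinearEquiv.coe_coe, Function.comp_apply,
      LinearEquiv.symm_apply_apply] at h1
    simp only [LinearEquiv.trans_apply]
    erw [h1, LinearEquiv.symm_apply_apply]
  · rintro ⟨e, he⟩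
    apply Quotient.sound
    refine ⟨(Module.finBasis F V).equivFun.symm ≪≫ₗ e ≪≫ₗ (Module.finBasis F W).equivFun, fun x => ?_⟩
    dsimp only
    rw [LinearEquiv.conj_apply, LinearEquiv.conj_apply]
    simp [he]

theorem cls_mk (a : Op F) : cls a.2 = (Quotient.mk (opSetoid F) a : Cls F) := by
  apply Quotient.sound
  refine ⟨(Module.finBasis F (Fin a.1 → F)).equivFun.symm, fun x => ?_⟩
  dsimp only
  rw [LinearEquiv.conj_apply]
  simp

end

theorem cls_surj (a : Cls F) : ∃ (n : ℕ) (f : Module.End F (Fin n → F)), cls f = a := by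
  induction a using Quotient.ind with
  | _ a => exact ⟨a.1, a.2, cls_mk a⟩

/-- Direct sum of classes. -/
noncomputable instance : Add (Cls F) where
  add := Quotient.lift₂ (fun a b : Op F => cls (LinearMap.prodMap a.2 b.2)) (by
    rintro a b a' b' ⟨e, he⟩ ⟨e', he'⟩
    exact (cls_eq_iff _ _).2 ⟨e.prodCongr e', fun x => Prod.ext (he x.1) (he' x.2)⟩)

/-- The class of the zero space. -/
noncomputable instance : Zero (Cls F) where
  zero := cls (0 : Module.End F (Fin 0 → F))

theorem add_mk (a b : Op F) :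
    @HAdd.hAdd (Cls F) (Cls F) (Cls F) _ (Quotient.mk (opSetoid F) a) (Quotient.mk (opSetoid F) b) = cls (LinearMap.prodMap a.2 b.2) :=
  rfl

theorem cls_add {V : Type v} [AddCommGroup V] [Module F V] [FiniteDimensional F V]
    {W : Type w} [AddCommGroup W] [Module F W] [FiniteDimensional F W]
    (f : Module.End F V) (g : Module.End F W) : cls f + cls g = cls (LinearMap.prodMap f g) := by
  rw [cls, cls, add_mk, cls_eq_iff]
  refine ⟨((Module.finBasis F V).equivFun.prodCongr (Module.finBasis F W).equivFun).symm, fun x => ?_⟩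
  simp [LinearEquiv.conj_apply]

theorem cls_of_subsingleton {V : Type v} [AddCommGroup V] [Module F V] [FiniteDimensional F V]
    [Subsingleton V] (f : Module.End F V) : cls f = 0 :=
  (cls_eq_iff _ _).2 ⟨LinearEquiv.ofSubsingleton _ _, fun x => Subsingleton.elim _ _⟩

theorem clsAdd_comm (a b : Cls F) : a + b = b + a := by
  obtain ⟨n, f, rfl⟩ := cls_surj a
  obtain ⟨k, g, rfl⟩ := cls_surj b
  rw [cls_add, cls_add, cls_eq_iff]
  exact ⟨LinearEquiv.prodComm F _ _, fun x => rfl⟩

theorem clsAdd_assoc (a b c : Cls F) : a + b + c = a + (b + c) := by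
  obtain ⟨n, f, rfl⟩ := cls_surj a
  obtain ⟨k, g, rfl⟩ := cls_surj b
  obtain ⟨l, h, rfl⟩ := cls_surj c
  rw [cls_add, cls_add, cls_add, cls_add, cls_eq_iff]
  exact ⟨LinearEquiv.prodAssoc F _ _ _, fun x => rfl⟩

theorem clsAdd_zero (a : Cls F) : a + 0 = a := by
  obtain ⟨n, f, rfl⟩ := cls_surj a
  show cls f + cls (0 : Module.End F (Fin 0 → F)) = cls f
  rw [cls_add, cls_eq_iff]
  refine ⟨LinearEquiv.ofBijective (LinearMap.fst F (Fin n → F) (Fin 0 → F))
    ⟨fun x y h => Prod.ext h (Subsingleton.elim _ _), fun x => ⟨(x, 0), rfl⟩⟩, fun x => rfl⟩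

noncomputable instance : AddCommMonoid (Cls F) where
  add_assoc := clsAdd_assoc
  add_comm := clsAdd_comm
  add_zero := clsAdd_zero
  zero_add a := (clsAdd_comm 0 a).trans (clsAdd_zero a)
  nsmul := nsmulRec

/-- The determinant of a class. -/
noncomputable def detC : Cls F → F :=
  Quotient.lift (fun a : Op F => LinearMap.det a.2) (by
    rintro a b ⟨e, he⟩
    have : b.2 = e.toLinearMap ∘ₗ a.2 ∘ₗ e.symm.toLinearMap := by
      refine LinearMap.ext fun x => ?_
      simp [he]
    rw [this, LinearMap.det_conj])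

theorem detC_cls {V : Type v} [AddCommGroup V] [Module F V] [FiniteDimensional F V] (f : Module.End F V) :
    detC (cls f) = LinearMap.det f := by
  show LinearMap.det ((Module.finBasis F V).equivFun.conj f) = _
  rw [LinearEquiv.conj_apply, LinearMap.comp_assoc]
  exact LinearMap.det_conj f _

theorem detC_add (a b : Cls F) : detC (a + b) = detC a * detC b := by
  obtain ⟨n, f, rfl⟩ := cls_surj a
  obtain ⟨k, g, rfl⟩ := cls_surj b
  rw [cls_add, detC_cls, detC_cls, detC_cls, LinearMap.det_prodMap]

theorem detC_zero : detC (0 : Cls F) = 1 := by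
  show detC (cls (0 : Module.End F (Fin 0 → F))) = 1
  rw [detC_cls]
  exact LinearMap.det_eq_one_of_finrank_eq_zero (by simp) _

/-- `x` is the class of a product of a member of `a` and a member of `y`. -/
def Prd (a y x : Cls F) : Prop :=
  ∃ (n : ℕ) (f g : Module.End F (Fin n → F)), cls f = a ∧ cls g = y ∧ cls (f * g) = x

/-- A member of `a` is a commutator of maps with determinants `s` and `t`. -/
def Com (a : Cls F) (s t : F) : Prop :=
  ∃ (n : ℕ) (f P B : Module.End F (Fin n → F)), cls f = a ∧ LinearMap.det P = s ∧ LinearMap.det B = t ∧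
    f * B * P = P * B

/-- The centraliser of `y` has all nonzero determinants. -/
def Cent (y : Cls F) : Prop :=
  ∀ s : F, s ≠ 0 → ∃ (n : ℕ) (g Z : Module.End F (Fin n → F)), cls g = y ∧ LinearMap.det Z = s ∧ g * Z = Z * g

section

variable {V : Type v} [AddCommGroup V] [Module F V] [FiniteDimensional F V]

theorem Prd.mk' (f g : Module.End F V) : Prd (cls f) (cls g) (cls (f * g)) := by
  let c := (Module.finBasis F V).equivFun
  refine ⟨_, c.conj f, c.conj g, ?_, ?_, ?_⟩
  · exact (cls_eq_iff _ _).2 ⟨c.symm, fun x => by simp [LinearEquiv.conj_apply]⟩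
  · exact (cls_eq_iff _ _).2 ⟨c.symm, fun x => by simp [LinearEquiv.conj_apply]⟩
  · exact (cls_eq_iff _ _).2 ⟨c.symm, fun x => by simp [LinearEquiv.conj_apply, Module.End.mul_apply]⟩

theorem Com.mk' (f P B : Module.End F V) (h : f * B * P = P * B) :
    Com (cls f) (LinearMap.det P) (LinearMap.det B) := by
  let c := (Module.finBasis F V).equivFun
  refine ⟨_, c.conj f, c.conj P, c.conj B, ?_, ?_, ?_, ?_⟩
  · exact (cls_eq_iff _ _).2 ⟨c.symm, fun x => by simp [LinearEquiv.conj_apply]⟩
  · rw [LinearEquiv.conj_apply, LinearMap.comp_assoc]; exact LinearMap.det_conj P _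
  · rw [LinearEquiv.conj_apply, LinearMap.comp_assoc]; exact LinearMap.det_conj B _
  · refine LinearMap.ext fun x => ?_
    have := LinearMap.congr_fun h (c.symm x)
    simp only [Module.End.mul_apply] at this ⊢
    simp [LinearEquiv.conj_apply, this]

theorem Com.exists_maps {a : Cls F} {s t : F} (h : Com a s t) (f : Module.End F V) (hf : cls f = a) :
    ∃ P B : Module.End F V, LinearMap.det P = s ∧ LinearMap.det B = t ∧ f * B * P = P * B := by
  obtain ⟨n, f', P, B, h1, h2, h3, h4⟩ := h
  obtain ⟨e, he⟩ := (cls_eq_iff f' f).1 (h1.trans hf.symm)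
  refine ⟨e.conj P, e.conj B, ?_, ?_, ?_⟩
  · rw [LinearEquiv.conj_apply, LinearMap.comp_assoc]; exact (LinearMap.det_conj P _).trans h2
  · rw [LinearEquiv.conj_apply, LinearMap.comp_assoc]; exact (LinearMap.det_conj B _).trans h3
  · refine LinearMap.ext fun x => ?_
    have := LinearMap.congr_fun h4 (e.symm x)
    simp only [Module.End.mul_apply] at this ⊢
    simp [LinearEquiv.conj_apply, ← this, he]

end

theorem Prd.add {a y x a' y' x' : Cls F} (h : Prd a y x) (h' : Prd a' y' x') :
    Prd (a + a') (y + y') (x + x') := by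
  obtain ⟨n, f, g, rfl, rfl, rfl⟩ := h
  obtain ⟨k, f', g', rfl, rfl, rfl⟩ := h'
  rw [cls_add, cls_add, cls_add]
  exact Prd.mk' (LinearMap.prodMap f f') (LinearMap.prodMap g g')

theorem Com.add {a a' : Cls F} {s t s' t' : F} (h : Com a s t) (h' : Com a' s' t') :
    Com (a + a') (s * s') (t * t') := by
  obtain ⟨n, f, P, B, rfl, rfl, rfl, h4⟩ := h
  obtain ⟨k, f', P', B', rfl, rfl, rfl, h4'⟩ := h'
  rw [cls_add, ← LinearMap.det_prodMap, ← LinearMap.det_prodMap]
  refine Com.mk' _ _ _ (LinearMap.ext fun x => ?_)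
  have h5 := LinearMap.congr_fun h4 x.1
  have h6 := LinearMap.congr_fun h4' x.2
  simp only [Module.End.mul_apply] at h5 h6 ⊢
  exact Prod.ext h5 h6

theorem com_zero : Com (0 : Cls F) 1 1 :=
  ⟨0, 0, 1, 1, rfl, map_one _, map_one _, Subsingleton.elim _ _⟩

theorem Cent.add {y : Cls F} (h : Cent y) (z : Cls F) : Cent (y + z) := by
  intro s hs
  obtain ⟨n, g, Z, rfl, hZ, hc⟩ := h s hs
  obtain ⟨k, g', rfl⟩ := cls_surj z
  rw [cls_add]
  let c := (Module.finBasis F ((Fin n → F) × (Fin k → F))).equivFun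
  refine ⟨_, c.conj (LinearMap.prodMap g g'), c.conj (LinearMap.prodMap Z 1), ?_, ?_, ?_⟩
  · exact (cls_eq_iff _ _).2 ⟨c.symm, fun x => by simp [LinearEquiv.conj_apply]⟩
  · rw [LinearEquiv.conj_apply, LinearMap.comp_assoc]
    refine (LinearMap.det_conj _ _).trans ?_
    rw [LinearMap.det_prodMap, hZ, map_one, mul_one]
  · refine LinearMap.ext fun x => ?_
    have h5 := LinearMap.congr_fun hc (c.symm x).1
    simp only [Module.End.mul_apply] at h5
    simp only [Module.End.mul_apply, LinearEquiv.conj_apply, LinearMap.coe_comp, LinearEquiv.coe_coe,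
      Function.comp_apply, LinearEquiv.symm_apply_apply]
    exact congrArg c (Prod.ext h5 rfl)

theorem Cent.add' {z : Cls F} (h : Cent z) (y : Cls F) : Cent (y + z) := by
  rw [add_comm]
  exact h.add y

theorem Prd.com {a y : Cls F} (h : Prd a y y) (hy : Cent y) {s : F} (hs : s ≠ 0) :
    Com a s (detC y) := by
  obtain ⟨n, f, g, rfl, rfl, h3⟩ := h
  obtain ⟨e, he⟩ := (cls_eq_iff g (f * g)).1 h3.symm
  have hd : LinearMap.det (e : Module.End F (Fin n → F)) ≠ 0 := (LinearEquiv.isUnit_det' e).ne_zero
  obtain ⟨k, g', Z, hg', hZ, hc⟩ := hy (s / LinearMap.det (e : Module.End F (Fin n → F))) (div_ne_zero hs hd)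
  obtain ⟨e', he'⟩ := (cls_eq_iff g' g).1 hg'
  have hcomm : g * e'.conj Z = e'.conj Z * g := by
    refine LinearMap.ext fun x => ?_
    have h5 := LinearMap.congr_fun hc (e'.symm x)
    simp only [Module.End.mul_apply] at h5
    have hge : ∀ y, e'.symm (g y) = g' (e'.symm y) := fun y => by
      apply e'.injective
      rw [he', e'.apply_symm_apply, e'.apply_symm_apply]
    simp only [Module.End.mul_apply, LinearEquiv.conj_apply, LinearMap.coe_comp, LinearEquiv.coe_coe,
      Function.comp_apply, hge, ← h5, he']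
  have hdet : LinearMap.det ((e : Module.End F (Fin n → F)) * e'.conj Z) = s := by
    rw [map_mul, LinearEquiv.conj_apply, LinearMap.comp_assoc]
    erw [LinearMap.det_conj Z e', hZ]
    field_simp
  rw [detC_cls, ← hdet]
  refine Com.mk' f _ g (LinearMap.ext fun x => ?_)
  have h5 := LinearMap.congr_fun hcomm x
  simp only [Module.End.mul_apply, LinearEquiv.coe_coe] at h5 ⊢
  rw [← h5, he, Module.End.mul_apply]

end CfsgLib.OreSL
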