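import Cfsg.Agent.OreSL.Cyclic

/-!
The Krylov lemma: a product of a map that shifts a basis with a triangular-plus-quadratic map
has any cyclic class with the right determinant.
-/

set_option autoImplicit false
set_option linter.style.haveILetI false

namespace CfsgLib.OreSL

open Polynomial

universe u v

variable {F : Type u} [Field F]

theorem quad_monic (a b : F) : (X ^ 2 - C a * X + C b : F[X]).Monic := by
  rw [show (X ^ 2 - C a * X + C b : F[X]) = X ^ 2 + (C (-a) * X + C b) by rw [C_neg]; ring]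
  refine monic_X_pow_add (lt_of_le_of_lt degree_linear_le ?_)
  exact_mod_cast (by decide : (1 : ℕ) < 2)

theorem quad_natDegree (a b : F) : (X ^ 2 - C a * X + C b : F[X]).natDegree = 2 := by
  compute_degree!

theorem quad_coeff_zero (a b : F) : (X ^ 2 - C a * X + C b : F[X]).coeff 0 = b := by
  simp

/-- The plane map with quadratic polynomial `X ^ 2 - a X + b`. -/
def planeMap (a b : F) : Module.End F (F × F) where
  toFun x := (-b * x.2, x.1 + a * x.2)
  map_add' x y := by ext <;> simp <;> ring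
  map_smul' c x := by ext <;> simp <;> ring

theorem cls_planeMap (a b : F) : cls (planeMap a b) = comp (X ^ 2 - C a * X + C b) := by
  refine cls_eq_comp _ (quad_monic a b).ne_zero ?_ (1, 0) ?_ fun w => ⟨C w.1 + C w.2 * X, ?_⟩
  · rw [Module.finrank_prod, Module.finrank_self, quad_natDegree]
  · simp [planeMap, pow_two, Module.End.mul_apply, Module.algebraMap_end_apply]
  · simp [planeMap, Module.End.mul_apply, Module.algebraMap_end_apply]

/-- The main lemma. -/
theorem prd_core {V : Type v} [AddCommGroup V] [Module F V] [FiniteDimensional F V] (k : ℕ) (hk : 1 ≤ k)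
    (A : Module.End F V) (e : ℕ → V) (bas : Module.Basis (Fin (k + 2)) F V)
    (hbas : ∀ i : Fin (k + 2), bas i = e i) (hA : ∀ i < k, A (e i) = e (i + 1)) (hdetA : LinearMap.det A ≠ 0)
    (R : Matrix (Fin k) (Fin k) F) (hup : ∀ i j : Fin k, (j : ℕ) < i → R i j = 0) (hdiag : ∀ i, R i i ≠ 0)
    (a b : F)
    (hR : ∀ v, ∃ w, aeval (Matrix.toLin' R) (X ^ 2 - C a * X + C b) w = v)
    (f : F[X]) (hf : f.Monic) (hfdeg : f.natDegree = k + 2)
    (hf0 : (-1) ^ (k + 2) * f.coeff 0 = LinearMap.det A * (R.det * b)) :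
    Prd (cls A) (cls (Matrix.toLin' R) + comp (X ^ 2 - C a * X + C b)) (comp f) := by
  classical
  have hdim : Module.finrank F V = k + 2 := by rw [Module.finrank_eq_card_basis bas, Fintype.card_fin]
  let S : ℕ → Submodule F V := fun j => Submodule.span F (e '' Set.Iio j)
  have hmem : ∀ {i j : ℕ}, i < j → e i ∈ S j := fun h => Submodule.subset_span ⟨_, h, rfl⟩
  have hmono : ∀ {i j : ℕ}, i ≤ j → S i ≤ S j := fun h =>
    Submodule.span_mono (Set.image_mono (Set.Iio_subset_Iio h))
  have htop : ∀ v : V, v ∈ S (k + 2) := by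
    intro v
    rw [← bas.sum_repr v]
    exact Submodule.sum_mem _ fun i _ => Submodule.smul_mem _ _ ((hbas i).symm ▸ hmem i.2)
  have hsplit : ∀ (j : ℕ) (v : V), v ∈ S (j + 1) → ∃ d : F, v - d • e j ∈ S j := by
    intro j v hv
    have h1 : e '' Set.Iio (j + 1) = insert (e j) (e '' Set.Iio j) := by
      rw [← Set.image_insert_eq]
      congr 1
      ext x
      simp
    obtain ⟨d, z, hz, rfl⟩ := Submodule.mem_span_insert.1 (h1 ▸ hv : v ∈ Submodule.span F (insert (e j) (e '' Set.Iio j)))
    exact ⟨d, by simpa using hz⟩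
  let ψ : V →ₗ[F] F := bas.coord ⟨k + 1, by omega⟩
  have hψe : ∀ i : ℕ, i ≤ k + 1 → ψ (e i) = if i = k + 1 then 1 else 0 := by
    intro i hi
    have := hbas ⟨i, by omega⟩
    rw [← this]
    simp [ψ, Finsupp.single_apply, Fin.ext_iff]
  have hψS : ∀ v ∈ S (k + 1), ψ v = 0 := by
    intro v hv
    induction hv using Submodule.span_induction with
    | mem x hx =>
      obtain ⟨i, hi, rfl⟩ := hx
      rw [hψe i (by have := Set.mem_Iio.1 hi; omega), if_neg (by have := Set.mem_Iio.1 hi; omega)]
    | zero => simp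
    | add x y _ _ hx hy => simp [hx, hy]
    | smul c x _ hx => simp [hx]
  have hAS : ∀ v ∈ S k, A v ∈ S (k + 1) := by
    intro v hv
    induction hv using Submodule.span_induction with
    | mem x hx =>
      obtain ⟨i, hi, rfl⟩ := hx
      rw [hA i hi]
      exact hmem (Nat.succ_lt_succ hi)
    | zero => simp
    | add x y _ _ hx hy => simpa using (S (k + 1)).add_mem hx hy
    | smul c x _ hx => simpa using (S (k + 1)).smul_mem c hx
  -- choice of the shift
  obtain ⟨s, hs⟩ : ∃ s : F, s * ψ (A (e k)) + ψ (A (e (k + 1))) ≠ 0 := by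
    by_cases h1 : ψ (A (e (k + 1))) = 0
    · refine ⟨1, ?_⟩
      rw [one_mul, h1, add_zero]
      intro h2
      have hall : ∀ v, ψ (A v) = 0 := by
        intro v
        obtain ⟨d, hd⟩ := hsplit (k + 1) v (htop v)
        obtain ⟨d', hd'⟩ := hsplit k _ hd
        have h3 := hψS _ (hAS _ hd')
        simp only [map_sub, map_smul, h1, h2, smul_eq_mul, mul_zero, sub_zero] at h3
        exact h3
      obtain ⟨v, hv⟩ := ((LinearMap.injective_iff_surjective).1
        (LinearMap.ker_eq_bot.1 (by
          by_contra hker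
          exact hdetA (LinearMap.det_eq_zero_iff_ker_ne_bot.2 hker)))) (e (k + 1))
      have := hall v
      rw [hv, hψe (k + 1) le_rfl, if_pos rfl] at this
      exact one_ne_zero this
    · exact ⟨0, by simpa using h1⟩
  set ℓ := s * ψ (A (e k)) + ψ (A (e (k + 1))) with hℓ
  let q : F := -(s ^ 2 - a * s + b)
  let Z : F → V → Module.End F V := fun z u => bas.constr F fun j : Fin (k + 2) =>
    if h : (j : ℕ) < k then ∑ i : Fin k, R i ⟨j, h⟩ • e i
    else if (j : ℕ) = k then s • e k + e (k + 1) + z • e (k - 1)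
    else q • e k + (a - s) • e (k + 1) + u
  have hZlt : ∀ (z : F) (u : V) (j : ℕ) (h : j < k), Z z u (e j) = ∑ i : Fin k, R i ⟨j, h⟩ • e i := by
    intro z u j h
    rw [← hbas ⟨j, by omega⟩]
    simp only [Z, Module.Basis.constr_basis]
    rw [dif_pos h]
  have hZk : ∀ (z : F) (u : V), Z z u (e k) = s • e k + e (k + 1) + z • e (k - 1) := by
    intro z u
    rw [← hbas ⟨k, by omega⟩]
    simp only [Z, Module.Basis.constr_basis]
    rw [dif_neg (by simp), hbas]
    simp
  have hZk1 : ∀ (z : F) (u : V), Z z u (e (k + 1)) = q • e k + (a - s) • e (k + 1) + u := by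
    intro z u
    rw [← hbas ⟨k + 1, by omega⟩]
    simp only [Z, Module.Basis.constr_basis]
    rw [dif_neg (by simp), if_neg (by simp), hbas]
  let X' : F → V → Module.End F V := fun z u => A * Z z u
  have hXlt : ∀ (z : F) (u : V) (j : ℕ) (h : j < k),
      X' z u (e j) - R ⟨j, h⟩ ⟨j, h⟩ • e (j + 1) ∈ S (j + 1) := by
    intro z u j h
    show A (Z z u (e j)) - _ ∈ _
    rw [hZlt z u j h, map_sum, ← Finset.sum_erase_add _ _ (Finset.mem_univ (⟨j, h⟩ : Fin k)), map_smul,
      hA j h, add_sub_cancel_right]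
    refine Submodule.sum_mem _ fun i hi => ?_
    rw [map_smul]
    rcases lt_or_ge j (i : ℕ) with hlt | hge
    · rw [hup i ⟨j, h⟩ hlt, zero_smul]
      exact zero_mem _
    · refine Submodule.smul_mem _ _ ?_
      rw [hA i i.2]
      refine hmem ?_
      have : (i : ℕ) ≠ j := fun he => (Finset.mem_erase.1 hi).1 (Fin.ext he)
      omega
  have hXeq : ∀ (z : F) (u : V), ∀ v ∈ S k, X' z u v = X' 0 0 v := by
    intro z u v hv
    induction hv using Submodule.span_induction with
    | mem x hx =>
      obtain ⟨i, hi, rfl⟩ := hx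
      show A (Z z u (e i)) = A (Z 0 0 (e i))
      rw [hZlt z u i hi, hZlt 0 0 i hi]
    | zero => simp
    | add x y _ _ hx hy => simp [hx, hy]
    | smul c x _ hx => simp [hx]
  have hXS : ∀ (z : F) (u : V) (j : ℕ), j ≤ k → ∀ v ∈ S j, X' z u v ∈ S (j + 1) := by
    intro z u j hj v hv
    induction hv using Submodule.span_induction with
    | mem x hx =>
      obtain ⟨i, hi, rfl⟩ := hx
      have hi' : i < j := hi
      have := hmono (show i + 1 ≤ j + 1 by omega) (hXlt z u i (by omega))
      have h2 := (S (j + 1)).add_mem this ((S (j + 1)).smul_mem (R ⟨i, by omega⟩ ⟨i, by omega⟩)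
        (hmem (show i + 1 < j + 1 by omega)))
      simpa using h2
    | zero => simp
    | add x y _ _ hx hy => simpa using (S (j + 1)).add_mem hx hy
    | smul c x _ hx => simpa using (S (j + 1)).smul_mem c hx
  have hlead : ∀ (z : F) (u : V) (j : ℕ), j ≤ k → ∃ c : F, c ≠ 0 ∧ (X' z u ^ j) (e 0) - c • e j ∈ S j ∧
      (X' z u ^ j) (e 0) = (X' 0 0 ^ j) (e 0) := by
    intro z u j
    induction j with
    | zero => exact fun _ => ⟨1, one_ne_zero, by simp, by simp⟩
    | succ j ih =>
      intro hj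
      obtain ⟨c, hc, hm, heq⟩ := ih (by omega)
      refine ⟨c * R ⟨j, by omega⟩ ⟨j, by omega⟩, mul_ne_zero hc (hdiag _), ?_, ?_⟩
      · have h1 := hXS z u j (by omega) _ hm
        have h2 := (S (j + 1)).smul_mem c (hXlt z u j (by omega))
        have h3 := (S (j + 1)).add_mem h1 h2
        rw [map_sub, map_smul, smul_sub, smul_smul] at h3
        rw [pow_succ', Module.End.mul_apply]
        convert h3 using 1
        abel
      · rw [pow_succ', pow_succ']
        show X' z u ((X' z u ^ j) (e 0)) = X' 0 0 ((X' 0 0 ^ j) (e 0))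
        rw [← heq]
        refine hXeq z u _ ?_
        have h4 : (X' z u ^ j) (e 0) = ((X' z u ^ j) (e 0) - c • e j) + c • e j := by abel
        rw [h4]
        exact (S k).add_mem (hmono (by omega) hm) ((S k).smul_mem c (hmem (by omega)))
  obtain ⟨c, hc, hw, -⟩ := hlead 0 0 k le_rfl
  set w := (X' 0 0 ^ k) (e 0) - c • e k with hwdef
  have hxk : ∀ (z : F) (u : V), (X' z u ^ k) (e 0) = c • e k + w := by
    intro z u
    obtain ⟨-, -, -, h⟩ := hlead z u k le_rfl
    rw [h, hwdef, add_sub_cancel]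
  set t₀ := A (s • e k + e (k + 1)) with ht0
  have hXk : ∀ (z : F) (u : V), X' z u (e k) = t₀ + z • e k := by
    intro z u
    show A (Z z u (e k)) = _
    rw [hZk, map_add, map_smul A z, hA (k - 1) (by omega), show k - 1 + 1 = k by omega]
  set p₀ := c • t₀ + X' 0 0 w with hp0
  have hxk1 : ∀ (z : F) (u : V), (X' z u ^ (k + 1)) (e 0) = p₀ + (c * z) • e k := by
    intro z u
    rw [pow_succ', Module.End.mul_apply, hxk, map_add, map_smul, hXk, hXeq z u w hw, hp0, smul_add, smul_smul]
    abel
  have hψp : ψ p₀ = c * ℓ := by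
    rw [hp0, map_add, hψS _ (hXS 0 0 k le_rfl w hw), add_zero, map_smul, ht0, map_add, map_smul, map_add,
      map_smul]
    rfl
  have hp' : p₀ - (c * ℓ) • e (k + 1) ∈ S (k + 1) := by
    obtain ⟨d, hd⟩ := hsplit (k + 1) p₀ (htop _)
    have h1 := hψS _ hd
    rw [map_sub, map_smul, hψe _ le_rfl, if_pos rfl, hψp, smul_eq_mul, mul_one, sub_eq_zero] at h1
    rwa [← h1] at hd
  obtain ⟨d, hd⟩ := hsplit k _ hp'
  set w' := p₀ - (c * ℓ) • e (k + 1) - d • e k with hw'
  set t₁ := A (q • e k + (a - s) • e (k + 1)) with ht1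
  have hXk1 : ∀ (z : F) (u : V), X' z u (e (k + 1)) = t₁ + A u := by
    intro z u
    show A (Z z u (e (k + 1))) = _
    rw [hZk1, map_add]
  set K := (c * ℓ) • t₁ + d • t₀ + X' 0 0 w' with hK
  have hxk2 : ∀ (z : F) (u : V), (X' z u ^ (k + 2)) (e 0) =
      K + z • (d • e k + c • t₀) + (c * z * z) • e k + (c * ℓ) • A u := by
    intro z u
    have h1 : p₀ = (c * ℓ) • e (k + 1) + d • e k + w' := by rw [hw']; abel
    rw [pow_succ', Module.End.mul_apply, hxk1, h1, map_add, map_add, map_add, map_smul, map_smul, map_smul,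
      hXk1, hXk, hXeq z u w' hd, hK]
    module
  -- choice of the parameters
  let z : F := -(ψ K + f.coeff (k + 1) * (c * ℓ)) / (c * ℓ)
  have hcl : c * ℓ ≠ 0 := mul_ne_zero hc hs
  have hexp : ∀ (z : F) (u : V), aeval (X' z u) f (e 0) =
      (∑ i ∈ Finset.range (k + 1), f.coeff i • (X' 0 0 ^ i) (e 0)) + f.coeff (k + 1) • (p₀ + (c * z) • e k) +
        (K + z • (d • e k + c • t₀) + (c * z * z) • e k + (c * ℓ) • A u) := by
    intro z u
    rw [aeval_eq_sum_range, hfdeg, Finset.sum_range_succ, Finset.sum_range_succ, LinearMap.add_apply,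
      LinearMap.add_apply, LinearMap.smul_apply, LinearMap.smul_apply, hxk1, hxk2,
      show f.coeff (k + 2) = 1 by rw [← hfdeg]; exact hf, one_smul, LinearMap.sum_apply]
    congr 2
    refine Finset.sum_congr rfl fun i hi => ?_
    obtain ⟨-, -, -, h⟩ := hlead z u i (by have := Finset.mem_range.1 hi; omega)
    rw [LinearMap.smul_apply, h]
  set E := (∑ i ∈ Finset.range (k + 1), f.coeff i • (X' 0 0 ^ i) (e 0)) + f.coeff (k + 1) • (p₀ + (c * z) • e k) +
      (K + z • (d • e k + c • t₀) + (c * z * z) • e k) with hE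
  have hψE : ψ E = 0 := by
    have h1 : ψ (∑ i ∈ Finset.range (k + 1), f.coeff i • (X' 0 0 ^ i) (e 0)) = 0 := by
      refine hψS _ (Submodule.sum_mem _ fun i hi => Submodule.smul_mem _ _ ?_)
      have hik : i ≤ k := by have := Finset.mem_range.1 hi; omega
      obtain ⟨ci, -, hm, -⟩ := hlead 0 0 i hik
      have := (S (k + 1)).add_mem (hmono (show i ≤ k + 1 by omega) hm)
        ((S (k + 1)).smul_mem ci (hmem (show i < k + 1 by omega)))
      simpa using this
    have h2 : ψ (e k) = 0 := hψS _ (hmem (by omega))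
    have h3 : ψ t₀ = ℓ := by rw [ht0, map_add, map_smul, map_add, map_smul]; rfl
    rw [hE]
    simp only [map_add, map_smul, h1, h2, h3, hψp, smul_eq_mul]
    simp only [z]
    field_simp
    ring
  have hES : E ∈ S (k + 1) := by
    obtain ⟨g, hg⟩ := hsplit (k + 1) E (htop _)
    have h1 := hψS _ hg
    rw [map_sub, map_smul, hψe _ le_rfl, if_pos rfl, hψE, smul_eq_mul, mul_one, zero_sub, neg_eq_zero] at h1
    rwa [h1, zero_smul, sub_zero] at hg
  obtain ⟨u, hu, r, hr⟩ : ∃ u ∈ S k, ∃ r : F, E + (c * ℓ) • A u = r • e 0 := by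
    suffices h : ∀ v ∈ S (k + 1), ∃ u ∈ S k, ∃ r : F, v + A u = r • e 0 by
      obtain ⟨u, hu, r, hr⟩ := h E hES
      exact ⟨(c * ℓ)⁻¹ • u, (S k).smul_mem _ hu, r, by rw [map_smul, smul_smul, mul_inv_cancel₀ hcl, one_smul]; exact hr⟩
    intro v hv
    induction hv using Submodule.span_induction with
    | mem x hx =>
      obtain ⟨i, hi, rfl⟩ := hx
      rcases Nat.eq_zero_or_pos i with rfl | hi0
      · exact ⟨0, zero_mem _, 1, by simp⟩
      · have hi' : i < k + 1 := hi
        refine ⟨-e (i - 1), neg_mem (hmem (by omega)), 0, ?_⟩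
        rw [map_neg, hA (i - 1) (by omega), show i - 1 + 1 = i by omega, add_neg_cancel, zero_smul]
    | zero => exact ⟨0, zero_mem _, 0, by simp⟩
    | add x y _ _ hx hy =>
      obtain ⟨u, hu, r, hr⟩ := hx
      obtain ⟨u', hu', r', hr'⟩ := hy
      exact ⟨u + u', add_mem hu hu', r + r', by rw [map_add, add_smul, ← hr, ← hr']; abel⟩
    | smul g x _ hx =>
      obtain ⟨u, hu, r, hr⟩ := hx
      exact ⟨g • u, (S k).smul_mem _ hu, g * r, by rw [map_smul, mul_smul, ← hr, smul_add]⟩
  have hann : aeval (X' z u) f (e 0) = r • e 0 := by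
    rw [hexp, ← hr, hE]
    abel
  -- spanning
  have hspan : Submodule.span F (Set.range fun i : ℕ => (X' z u ^ i) (e 0)) = ⊤ := by
    set T := Submodule.span F (Set.range fun i : ℕ => (X' z u ^ i) (e 0))
    have hx : ∀ i, (X' z u ^ i) (e 0) ∈ T := fun i => Submodule.subset_span ⟨i, rfl⟩
    have h1 : ∀ j, j ≤ k + 1 → S j ≤ T := by
      intro j
      induction j with
      | zero => intro _; simp [S]
      | succ j ih =>
        intro hj
        have hjT := ih (by omega)
        obtain ⟨cj, hcj, hm, -⟩ := hlead z u j (by omega)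
        have h2 := T.sub_mem (hx j) (hjT hm)
        rw [sub_sub_cancel] at h2
        have h3 := T.smul_mem cj⁻¹ h2
        rw [smul_smul, inv_mul_cancel₀ hcj, one_smul] at h3
        refine Submodule.span_le.2 ?_
        rintro _ ⟨i, hi, rfl⟩
        rcases Nat.lt_succ_iff_lt_or_eq.1 (Set.mem_Iio.1 hi) with hlt | heq
        · exact hjT (hmem hlt)
        · rwa [heq]
    have h2 := h1 (k + 1) le_rfl
    have h3 : p₀ + (c * z) • e k ∈ T := hxk1 z u ▸ hx (k + 1)
    have h4 : p₀ ∈ T := by
      have := T.sub_mem h3 (T.smul_mem (c * z) (h2 (hmem (show k < k + 1 by omega))))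
      simpa using this
    have h5 : e (k + 1) ∈ T := by
      have := T.smul_mem (c * ℓ)⁻¹ (T.sub_mem h4 (h2 hp'))
      rwa [sub_sub_cancel, smul_smul, inv_mul_cancel₀ hcl, one_smul] at this
    refine eq_top_iff.2 fun v _ => ?_
    obtain ⟨g, hg⟩ := hsplit (k + 1) v (htop v)
    have := T.add_mem (h2 hg) (T.smul_mem g h5)
    simpa using this
  -- the class of the triangular map
  have hZS : ∀ v ∈ S k, Z z u v ∈ S k := by
    intro v hv
    induction hv using Submodule.span_induction with
    | mem x hx =>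
      obtain ⟨i, hi, rfl⟩ := hx
      rw [hZlt z u i hi]
      exact Submodule.sum_mem _ fun j _ => Submodule.smul_mem _ _ (hmem j.2)
    | zero => simp
    | add x y _ _ hx hy => simpa using add_mem hx hy
    | smul g x _ hx => simpa using (S k).smul_mem g hx
  let ι : (Fin k → F) →ₗ[F] V := Fintype.linearCombination F fun i : Fin k => e i
  have hι : ∀ v ∈ S k, ∃ x, ι x = v := by
    intro v hv
    have : S k ≤ LinearMap.range ι := by
      refine Submodule.span_le.2 ?_
      rintro _ ⟨i, hi, rfl⟩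
      exact ⟨Pi.single ⟨i, hi⟩ 1, by simp [ι]⟩
    exact LinearMap.mem_range.1 (this hv)
  have hιS : ∀ x, ι x ∈ S k := fun x => by
    simp only [ι, Fintype.linearCombination_apply]
    exact Submodule.sum_mem _ fun i _ => Submodule.smul_mem _ _ (hmem i.2)
  have hιZ : ∀ x, Z z u (ι x) = ι (Matrix.toLin' R x) := by
    intro x
    simp only [ι, Fintype.linearCombination_apply, map_sum, map_smul]
    rw [Finset.sum_congr rfl fun j _ => congrArg (x j • ·) (hZlt z u j j.2)]
    simp only [Matrix.toLin'_apply, Matrix.mulVec, dotProduct, Finset.smul_sum, Finset.sum_smul, smul_smul,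
      Fin.eta]
    rw [Finset.sum_comm]
    exact Finset.sum_congr rfl fun i _ => Finset.sum_congr rfl fun j _ => by rw [mul_comm]
  set P := (X ^ 2 - C a * X + C b : F[X]) with hP
  have hPv : ∀ (T : Module.End F V) (v : V), aeval T P v = T (T v) - a • T v + b • v := fun T v => by
    simp [hP, pow_two, Module.End.mul_apply, Module.algebraMap_end_apply]
  have hek : aeval (Z z u) P (e k) ∈ S k := by
    have h1 : (z • e (k - 1) : V) ∈ S k := (S k).smul_mem _ (hmem (by omega))
    have h2 := hZS _ h1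
    have h3 : aeval (Z z u) P (e k) =
        (s * z) • e (k - 1) + (u + Z z u (z • e (k - 1)) - (a * z) • e (k - 1)) := by
      rw [hPv, hZk, map_add, map_add, map_smul (Z z u) s, hZk, hZk1]
      simp only [q]
      module
    rw [h3]
    exact add_mem ((S k).smul_mem _ (hmem (by omega))) (sub_mem (add_mem hu h2) ((S k).smul_mem _ (hmem (by omega))))
  obtain ⟨g, hg⟩ : ∃ g ∈ S k, aeval (Z z u) P g = - aeval (Z z u) P (e k) := by
    obtain ⟨x, hx⟩ := hι _ (neg_mem hek)
    obtain ⟨y, hy⟩ := hR x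
    refine ⟨ι y, hιS y, ?_⟩
    rw [← hx, ← hy, hPv, hιZ, hιZ]
    simp [hP, pow_two, Module.End.mul_apply, Module.algebraMap_end_apply]
  obtain ⟨ω, hω⟩ : ∃ ω, ω = e k + g := ⟨_, rfl⟩
  have hωP : aeval (Z z u) P ω = 0 := by rw [hω, map_add, hg.2, add_neg_cancel]
  let Φ : (Fin k → F) × (F × F) →ₗ[F] V :=
    ι.coprod ((LinearMap.toSpanSingleton F V ω).coprod (LinearMap.toSpanSingleton F V (Z z u ω)))
  have hΦ : ∀ x : (Fin k → F) × (F × F), Φ x = ι x.1 + (x.2.1 • ω + x.2.2 • Z z u ω) := fun x => rfl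
  have hcomm : ∀ x, Φ (LinearMap.prodMap (Matrix.toLin' R) (planeMap a b) x) = Z z u (Φ x) := by
    intro x
    rw [hΦ, hΦ, map_add, map_add, map_smul, map_smul, hιZ]
    have h1 : Z z u (Z z u ω) = a • Z z u ω - b • ω := by
      have := hPv (Z z u) ω
      rw [hωP] at this
      calc Z z u (Z z u ω) = (Z z u (Z z u ω) - a • Z z u ω + b • ω) + (a • Z z u ω - b • ω) := by abel
        _ = _ := by rw [← this, zero_add]
    rw [h1]
    simp only [LinearMap.prodMap_apply, planeMap, LinearMap.coe_mk, AddHom.coe_mk]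
    module
  have hsurj : Function.Surjective Φ := by
    intro v
    have hS : S k ≤ LinearMap.range Φ := fun x hx => by
      obtain ⟨y, rfl⟩ := hι x hx
      exact ⟨(y, 0), by simp [hΦ]⟩
    have hk' : e k ∈ LinearMap.range Φ := by
      have h1 : ω ∈ LinearMap.range Φ := ⟨(0, (1, 0)), by simp [hΦ]⟩
      have := (LinearMap.range Φ).sub_mem h1 (hS hg.1)
      simpa [hω] using this
    have hk1 : e (k + 1) ∈ LinearMap.range Φ := by
      have h1 : Z z u ω ∈ LinearMap.range Φ := ⟨(0, (0, 1)), by simp [hΦ]⟩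
      rw [hω, map_add, hZk] at h1
      have h2 := (LinearMap.range Φ).sub_mem h1
        (((LinearMap.range Φ).add_mem ((LinearMap.range Φ).smul_mem s hk')
          (hS ((S k).add_mem ((S k).smul_mem z (hmem (show k - 1 < k by omega))) (hZS _ hg.1)))))
      convert h2 using 1
      abel
    have hall : S (k + 2) ≤ LinearMap.range Φ := by
      refine Submodule.span_le.2 ?_
      rintro _ ⟨i, hi, rfl⟩
      have hi' : i < k + 2 := hi
      rcases (show i < k ∨ i = k ∨ i = k + 1 by omega) with h | h | h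
      · exact hS (hmem h)
      · exact h ▸ hk'
      · exact h ▸ hk1
    exact hall (htop v)
  have hfr : Module.finrank F ((Fin k → F) × (F × F)) = Module.finrank F V := by
    rw [hdim, Module.finrank_prod, Module.finrank_prod, Module.finrank_self, Module.finrank_pi, Fintype.card_fin]
  have hclsZ : cls (Z z u) = cls (Matrix.toLin' R) + comp P := by
    rw [← cls_planeMap, cls_add, eq_comm, cls_eq_iff]
    exact ⟨LinearEquiv.ofBijective Φ
      ⟨(LinearMap.injective_iff_surjective_of_finrank_eq_finrank hfr).2 hsurj, hsurj⟩, hcomm⟩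
  -- the class of the product
  set f' := f - C r with hf'
  have hdeg : (C r).natDegree < f.natDegree := by rw [natDegree_C, hfdeg]; omega
  have hf'm : f'.Monic := hf.sub_of_left (degree_lt_degree hdeg)
  have hf'd : f'.natDegree = k + 2 := by rw [hf', natDegree_sub_C, hfdeg]
  have hclsX : cls (X' z u) = comp f' := by
    refine cls_eq_comp_of_span _ hf'm.ne_zero (by rw [hdim, hf'd]) (e 0) ?_ hspan
    rw [hf', map_sub, LinearMap.sub_apply, hann, aeval_C, Module.algebraMap_end_apply, sub_self]
  have hdet : detC (cls (X' z u)) = LinearMap.det A * detC (cls (Z z u)) := by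
    rw [detC_cls, detC_cls]
    exact map_mul LinearMap.det A (Z z u)
  rw [hclsX, hclsZ, detC_add, det_comp hf'm, det_comp (quad_monic a b), detC_cls, LinearMap.det_toLin',
    quad_natDegree, quad_coeff_zero, hf'd, hf', coeff_sub, coeff_C_zero,
    show ((-1 : F) ^ 2 * b) = b by ring, ← hf0] at hdet
  have hr0 : r = 0 := by
    have := mul_left_cancel₀ (pow_ne_zero _ (neg_ne_zero.2 one_ne_zero)) hdet
    simpa using this
  rw [hr0, C_0, sub_zero] at hf'
  rw [← hclsZ, ← hf', ← hclsX]
  exact Prd.mk' A (Z z u)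

end CfsgLib.OreSL
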