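import Cfsg.Agent.OreSL.Cls
import Cfsg.Agent.GLClassCount.Split

/-!
Cyclic similarity classes.
-/

set_option autoImplicit false
set_option linter.style.haveILetI false

namespace CfsgLib.OreSL

open Polynomial

universe u v

variable {F : Type u} [Field F]

theorem finAdjoin {g : F[X]} (hg : g ≠ 0) : Module.Finite F (AdjoinRoot g) :=
  Module.Finite.of_basis (AdjoinRoot.powerBasis hg).basis

open Classical in
/-- The cyclic class with polynomial `g`. -/
noncomputable def comp (g : F[X]) : Cls F :=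
  if h : g ≠ 0 then
    haveI := finAdjoin h
    cls (LinearMap.mulLeft F (AdjoinRoot.root g))
  else 0

/-- The scalar class in dimension one. -/
noncomputable def sc (c : F) : Cls F := cls (c • LinearMap.id : Module.End F F)

theorem comp_eq {g : F[X]} (hg : g ≠ 0) [Module.Finite F (AdjoinRoot g)] :
    comp g = cls (LinearMap.mulLeft F (AdjoinRoot.root g)) := by
  rw [comp, dif_pos hg]

theorem finrank_adjoin {g : F[X]} (hg : g ≠ 0) : Module.finrank F (AdjoinRoot g) = g.natDegree := by
  rw [(AdjoinRoot.powerBasis hg).finrank, AdjoinRoot.powerBasis_dim]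

theorem aeval_mulLeft_one {g : F[X]} (p : F[X]) :
    aeval (LinearMap.mulLeft F (AdjoinRoot.root g)) p 1 = AdjoinRoot.mk g p := by
  have h : LinearMap.mulLeft F (AdjoinRoot.root g) = Algebra.lmul F (AdjoinRoot g) (AdjoinRoot.root g) := rfl
  rw [h, aeval_algHom_apply]
  show aeval (AdjoinRoot.root g) p * 1 = _
  rw [mul_one, AdjoinRoot.aeval_eq]

/-- A cyclic endomorphism is determined by an annihilating polynomial of full degree. -/
theorem cls_eq_comp {V : Type v} [AddCommGroup V] [Module F V] [FiniteDimensional F V] (f : Module.End F V)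
    {g : F[X]} (hg : g ≠ 0) (hdim : Module.finrank F V = g.natDegree) (v : V) (hann : aeval f g v = 0)
    (hspan : ∀ w : V, ∃ p : F[X], aeval f p v = w) : cls f = comp g := by
  haveI := finAdjoin hg
  rw [comp_eq hg, eq_comm, cls_eq_iff]
  let φ : F[X] →ₗ[F] V := (LinearMap.applyₗ v) ∘ₗ (aeval f).toLinearMap
  have hker : ∀ p : F[X], g ∣ p → φ p = 0 := by
    rintro p ⟨r, rfl⟩
    show aeval f (g * r) v = 0
    rw [mul_comm, map_mul, Module.End.mul_apply, hann, map_zero]
  let ψ : AdjoinRoot g →ₗ[F] V :=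
    { toFun := fun x => φ (AdjoinRoot.mk_surjective x).choose
      map_add' := fun x y => by
        rw [← map_add, ← sub_eq_zero, ← map_sub]
        apply hker
        rw [← AdjoinRoot.mk_eq_zero, map_sub, map_add, (AdjoinRoot.mk_surjective (x + y)).choose_spec,
          (AdjoinRoot.mk_surjective x).choose_spec, (AdjoinRoot.mk_surjective y).choose_spec, sub_self]
      map_smul' := fun c x => by
        rw [RingHom.id_apply, ← map_smul, ← sub_eq_zero, ← map_sub]
        apply hker
        rw [← AdjoinRoot.mk_eq_zero, map_sub, ← AdjoinRoot.smul_mk, (AdjoinRoot.mk_surjective (c • x)).choose_spec,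
          (AdjoinRoot.mk_surjective x).choose_spec, sub_self] }
  have hψ : ∀ p : F[X], ψ (AdjoinRoot.mk g p) = aeval f p v := fun p => by
    show φ _ = φ p
    rw [← sub_eq_zero, ← map_sub]
    apply hker
    rw [← AdjoinRoot.mk_eq_zero, map_sub, (AdjoinRoot.mk_surjective (AdjoinRoot.mk g p)).choose_spec, sub_self]
  have hsurj : Function.Surjective ψ := fun w => by
    obtain ⟨p, hp⟩ := hspan w
    exact ⟨_, (hψ p).trans hp⟩
  have hinj := (LinearMap.injective_iff_surjective_of_finrank_eq_finrank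
    (by rw [finrank_adjoin hg, hdim]) (f := ψ)).2 hsurj
  refine ⟨LinearEquiv.ofBijective ψ ⟨hinj, hsurj⟩, fun x => ?_⟩
  obtain ⟨p, rfl⟩ := AdjoinRoot.mk_surjective x
  show ψ (AdjoinRoot.root g * AdjoinRoot.mk g p) = f (ψ (AdjoinRoot.mk g p))
  rw [← AdjoinRoot.mk_X, ← map_mul, hψ, hψ, map_mul, aeval_X]
  rfl

/-- Krylov form of `cls_eq_comp`. -/
theorem cls_eq_comp_of_span {V : Type v} [AddCommGroup V] [Module F V] [FiniteDimensional F V]
    (f : Module.End F V) {g : F[X]} (hg : g ≠ 0) (hdim : Module.finrank F V = g.natDegree) (v : V)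
    (hann : aeval f g v = 0)
    (hspan : Submodule.span F (Set.range fun i : ℕ => (f ^ i) v) = ⊤) : cls f = comp g := by
  refine cls_eq_comp f hg hdim v hann fun w => ?_
  have hw : w ∈ Submodule.span F (Set.range fun i : ℕ => (f ^ i) v) := hspan ▸ Submodule.mem_top
  induction hw using Submodule.span_induction with
  | mem x hx =>
    obtain ⟨i, rfl⟩ := hx
    exact ⟨X ^ i, by rw [map_pow, aeval_X]⟩
  | zero => exact ⟨0, by simp⟩
  | add x y _ _ hx hy =>
    obtain ⟨p, rfl⟩ := hx
    obtain ⟨r, rfl⟩ := hy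
    exact ⟨p + r, by simp⟩
  | smul c x _ hx =>
    obtain ⟨p, rfl⟩ := hx
    exact ⟨c • p, by simp⟩

theorem det_comp {g : F[X]} (hg : g.Monic) : detC (comp g) = (-1) ^ g.natDegree * g.coeff 0 := by
  haveI := finAdjoin hg.ne_zero
  rw [comp_eq hg.ne_zero, detC_cls, ← CfsgLib.GLClassCount.norm_root hg]
  rfl

theorem det_sc (c : F) : detC (sc c) = c := by
  rw [sc, detC_cls, LinearMap.det_smul, LinearMap.det_id, Module.finrank_self, pow_one, mul_one]

theorem comp_one : comp (1 : F[X]) = 0 := by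
  haveI := finAdjoin (one_ne_zero (α := F[X]))
  rw [comp_eq one_ne_zero]
  haveI : Subsingleton (AdjoinRoot (1 : F[X])) :=
    Module.finrank_zero_iff.1 (by rw [finrank_adjoin one_ne_zero, natDegree_one] : Module.finrank F (AdjoinRoot (1 : F[X])) = 0)
  exact cls_of_subsingleton _

theorem comp_X_sub_C (c : F) : comp (X - C c) = sc c := by
  refine (cls_eq_comp _ (X_sub_C_ne_zero c) (by rw [Module.finrank_self, natDegree_X_sub_C]) (1 : F) ?_
    fun w => ⟨C w, ?_⟩).symm
  · simp
  · simp

theorem comp_mul {g h : F[X]} (hg : g ≠ 0) (hh : h ≠ 0) (hco : IsCoprime g h) :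
    comp (g * h) = comp g + comp h := by
  haveI := finAdjoin hg
  haveI := finAdjoin hh
  rw [comp_eq hg, comp_eq hh, cls_add]
  set M := LinearMap.prodMap (LinearMap.mulLeft F (AdjoinRoot.root g)) (LinearMap.mulLeft F (AdjoinRoot.root h))
    with hM
  have hev : ∀ p : F[X], aeval M p (1, 1) = (AdjoinRoot.mk g p, AdjoinRoot.mk h p) := by
    intro p
    rw [← aeval_mulLeft_one p, ← aeval_mulLeft_one p]
    have : aeval M p = LinearMap.prodMap (aeval (LinearMap.mulLeft F (AdjoinRoot.root g)) p)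
        (aeval (LinearMap.mulLeft F (AdjoinRoot.root h)) p) :=
      (aeval_algHom_apply (LinearMap.prodMapAlgHom F (AdjoinRoot g) (AdjoinRoot h))
        (LinearMap.mulLeft F (AdjoinRoot.root g), LinearMap.mulLeft F (AdjoinRoot.root h)) p).trans
        (by rw [aeval_prod_apply]; rfl)
    rw [this]
    rfl
  refine (cls_eq_comp M (mul_ne_zero hg hh) ?_ (1, 1) ?_ fun w => ?_).symm
  · rw [Module.finrank_prod, finrank_adjoin hg, finrank_adjoin hh, natDegree_mul hg hh]
  · rw [hev, AdjoinRoot.mk_eq_zero.2 (dvd_mul_right _ _), AdjoinRoot.mk_eq_zero.2 (dvd_mul_left _ _)]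
    rfl
  · obtain ⟨a, ha⟩ := AdjoinRoot.mk_surjective w.1
    obtain ⟨b, hb⟩ := AdjoinRoot.mk_surjective w.2
    obtain ⟨u, v, huv⟩ := hco
    refine ⟨a * (v * h) + b * (u * g), (hev _).trans (Prod.ext ?_ ?_)⟩
    · show AdjoinRoot.mk g _ = w.1
      rw [← ha, ← sub_eq_zero, ← map_sub, AdjoinRoot.mk_eq_zero]
      exact ⟨(b - a) * u, by linear_combination a * huv⟩
    · show AdjoinRoot.mk h _ = w.2
      rw [← hb, ← sub_eq_zero, ← map_sub, AdjoinRoot.mk_eq_zero]
      exact ⟨(a - b) * v, by linear_combination b * huv⟩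

theorem cent_sc (c : F) : Cent (sc c) := by
  intro s _
  refine ⟨1, c • LinearMap.id, s • LinearMap.id, ?_, ?_, ?_⟩
  · exact (cls_eq_iff _ _).2 ⟨LinearEquiv.funUnique (Fin 1) F F, fun x => rfl⟩
  · rw [LinearMap.det_smul, LinearMap.det_id, Module.finrank_pi, Fintype.card_fin, pow_one, mul_one]
  · refine LinearMap.ext fun x => ?_
    simp [Module.End.mul_apply, smul_smul, mul_comm]

theorem cent_comp [Finite F] {p : F[X]} (hp : Irreducible p) : Cent (comp p) := by
  haveI := Fact.mk hp
  haveI := finAdjoin hp.ne_zero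
  haveI : Finite (AdjoinRoot p) := Module.finite_of_finite F
  intro s _
  obtain ⟨a, ha⟩ := FiniteField.norm_surjective F (AdjoinRoot p) s
  let c := (Module.finBasis F (AdjoinRoot p)).equivFun
  refine ⟨_, c.conj (LinearMap.mulLeft F (AdjoinRoot.root p)), c.conj (LinearMap.mulLeft F a), ?_, ?_, ?_⟩
  · rw [comp_eq hp.ne_zero]
    exact (cls_eq_iff _ _).2 ⟨c.symm, fun x => by simp [LinearEquiv.conj_apply]⟩
  · rw [LinearEquiv.conj_apply, LinearMap.comp_assoc]
    exact (LinearMap.det_conj _ _).trans ha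
  · refine LinearMap.ext fun x => ?_
    simp [LinearEquiv.conj_apply, Module.End.mul_apply, mul_left_comm]

theorem cls_pi : ∀ {k : ℕ} {M : Fin k → Type u} [∀ i, AddCommGroup (M i)] [∀ i, Module F (M i)]
    [∀ i, FiniteDimensional F (M i)] (φ : ∀ i, Module.End F (M i)),
    cls (LinearMap.pi fun i => φ i ∘ₗ LinearMap.proj i) = ∑ i, cls (φ i) := by
  intro k
  induction k with
  | zero =>
    intro M _ _ _ φ
    rw [Fin.sum_univ_zero]
    exact cls_of_subsingleton _
  | succ k ih =>
    intro M _ _ _ φ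
    rw [Fin.sum_univ_succ, ← ih (fun i => φ i.succ), cls_add, eq_comm, cls_eq_iff]
    refine ⟨{ toFun := fun x => Fin.cons x.1 x.2
              invFun := fun x => (x 0, fun i => x i.succ)
              map_add' := fun x y => funext fun i => by refine Fin.cases ?_ ?_ i <;> simp
              map_smul' := fun c x => funext fun i => by refine Fin.cases ?_ ?_ i <;> simp
              left_inv := fun x => by simp
              right_inv := fun x => funext fun i => by refine Fin.cases ?_ ?_ i <;> simp }, fun x => ?_⟩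
    refine funext fun i => ?_
    refine Fin.cases ?_ ?_ i <;> simp

/-- The primary decomposition of a class. -/
theorem exists_primary (n : ℕ) (g : Matrix.GeneralLinearGroup (Fin n) F) :
    ∃ (m : ℕ) (p : Fin m → F[X]) (e : Fin m → ℕ), (∀ i, Irreducible (p i) ∧ (p i).Monic ∧ e i ≠ 0 ∧ p i ≠ X) ∧
      ∑ i, e i * (p i).natDegree = n ∧ cls (Matrix.toLin' g.1) = ∑ i, comp (p i ^ e i) := by
  obtain ⟨m, p, e, ⟨hp, -, hX, hsum⟩, ⟨φ⟩⟩ := CfsgLib.GLClassCount.exists_data g
  refine ⟨m, p, e, fun i => ⟨(hp i).1, (hp i).2.1, (hp i).2.2, hX i⟩, hsum, ?_⟩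
  have hne : ∀ i, p i ^ e i ≠ 0 := fun i => pow_ne_zero _ (hp i).1.ne_zero
  haveI : ∀ i, Module.Finite F (AdjoinRoot (p i ^ e i)) := fun i => finAdjoin (hne i)
  rw [Finset.sum_congr rfl fun i _ => comp_eq (hne i), ← cls_pi, cls_eq_iff]
  refine ⟨(Module.AEval'.of (Matrix.toLin' g.1)) ≪≫ₗ φ.restrictScalars F, fun x => funext fun i => ?_⟩
  have h1 : φ (Module.AEval'.of (Matrix.toLin' g.1) (Matrix.toLin' g.1 x)) i =
      (X : F[X]) • φ (Module.AEval'.of (Matrix.toLin' g.1) x) i := by
    rw [← Module.AEval'.X_smul_of, map_smul]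
    rfl
  exact h1

end CfsgLib.OreSL
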