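import Cfsg.Agent.OreSL.Blocks

/-!
The case of fields with at least four elements, and general facts about block decompositions.
-/

set_option autoImplicit false
set_option linter.style.haveILetI false

namespace CfsgLib.OreSL

open Polynomial

universe u

variable {F : Type u} [Field F]

/-- The determinant attached to a block polynomial. -/
noncomputable def dd (g : F[X]) : F := (-1) ^ g.natDegree * g.coeff 0

/-- A primary block: a power of a monic irreducible polynomial other than `X`. -/
def IsBlock (g : F[X]) : Prop :=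
  ∃ (p : F[X]) (e : ℕ), Irreducible p ∧ p.Monic ∧ e ≠ 0 ∧ p.coeff 0 ≠ 0 ∧ g = p ^ e

theorem IsBlock.monic {g : F[X]} (h : IsBlock g) : g.Monic := by
  obtain ⟨p, e, -, hp, -, -, rfl⟩ := h
  exact hp.pow e

theorem IsBlock.coeff_ne {g : F[X]} (h : IsBlock g) : g.coeff 0 ≠ 0 := by
  obtain ⟨p, e, -, -, -, hp, rfl⟩ := h
  rw [coeff_zero_eq_eval_zero, eval_pow, ← coeff_zero_eq_eval_zero]
  exact pow_ne_zero _ hp

theorem IsBlock.deg_pos {g : F[X]} (h : IsBlock g) : 1 ≤ g.natDegree := by
  obtain ⟨p, e, hp, -, he, -, rfl⟩ := h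
  rw [natDegree_pow]
  exact Nat.mul_pos (Nat.pos_of_ne_zero he) hp.natDegree_pos

theorem IsBlock.dd_ne {g : F[X]} (h : IsBlock g) : dd g ≠ 0 :=
  mul_ne_zero (pow_ne_zero _ (neg_ne_zero.2 one_ne_zero)) h.coeff_ne

theorem IsBlock.coprime_or_eq {g h : F[X]} (hg : IsBlock g) (hh : IsBlock h) :
    IsCoprime g h ∨ ∃ (p : F[X]) (a b : ℕ), Irreducible p ∧ p.Monic ∧ g = p ^ a ∧ h = p ^ b := by
  obtain ⟨p, a, hp, hpm, -, -, rfl⟩ := hg
  obtain ⟨q, b, hq, hqm, -, -, rfl⟩ := hh
  by_cases hd : p ∣ q
  · right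
    have := eq_of_monic_of_associated hpm hqm (hp.associated_of_dvd hq hd)
    exact ⟨p, a, b, hp, hpm, rfl, by rw [this]⟩
  · exact Or.inl ((hp.coprime_iff_not_dvd.2 hd).pow)

theorem IsBlock.coprime_or_same {g h : F[X]} (hg : IsBlock g) (hh : IsBlock h)
    (hd : g.natDegree = h.natDegree) : IsCoprime g h ∨ g = h := by
  rcases hg.coprime_or_eq hh with hco | ⟨p, a, b, hp, -, rfl, rfl⟩
  · exact Or.inl hco
  · rw [natDegree_pow, natDegree_pow] at hd
    exact Or.inr (by rw [Nat.eq_of_mul_eq_mul_right hp.natDegree_pos hd])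

theorem linear_form {g : F[X]} (hg : IsBlock g) (hd : g.natDegree = 1) :
    ∃ r : F, r ≠ 0 ∧ g = X - C r ∧ dd g = r := by
  have h1 := hg.monic.eq_X_add_C hd
  refine ⟨-g.coeff 0, neg_ne_zero.2 hg.coeff_ne, ?_, by rw [dd, hd]; ring⟩
  rw [C_neg, sub_neg_eq_add]
  exact h1

theorem comp_linear {g : F[X]} (hg : IsBlock g) (hd : g.natDegree = 1) :
    ∃ r : F, r ≠ 0 ∧ comp g = sc r ∧ dd g = r := by
  obtain ⟨r, hr, he, hdd⟩ := linear_form hg hd
  exact ⟨r, hr, by rw [he, comp_X_sub_C], hdd⟩

theorem dd_two {g : F[X]} (hd : g.natDegree = 2) : dd g = g.coeff 0 := by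
  rw [dd, hd]; ring

theorem flex_big [Fintype F] (h3 : 3 ≤ Fintype.card F) {g : F[X]} (hg : g.Monic) (hg0 : g.coeff 0 ≠ 0)
    (hd : 3 ≤ g.natDegree) : Flex (comp g) (dd g) :=
  flex_of_sup h3 (mul_ne_zero (pow_ne_zero _ (neg_ne_zero.2 one_ne_zero)) hg0)
    (sup_big hg (show g.natDegree = (g.natDegree - 3 + 1) + 2 by omega) (by omega) hg0)

theorem flex_pair [Fintype F] (h3 : 3 ≤ Fintype.card F) {g : F[X]} (hg : g.Monic) (hg0 : g.coeff 0 ≠ 0)
    (hd : g.natDegree = 2) {r : F} (hr : r ≠ 0) : Flex (comp g + sc r) (dd g * r) :=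
  flex_of_sup (j := 0) h3 (mul_ne_zero (mul_ne_zero (pow_ne_zero _ (neg_ne_zero.2 one_ne_zero)) hg0) hr)
    (sup_pair hg hd hg0 hr)

theorem flex_merge [Fintype F] (h3 : 3 ≤ Fintype.card F) {g h : F[X]} (hg : IsBlock g) (hh : IsBlock h)
    (hco : IsCoprime g h) (hd : 3 ≤ g.natDegree + h.natDegree) : Flex (comp g + comp h) (dd g * dd h) := by
  have hdeg : (g * h).natDegree = g.natDegree + h.natDegree := hg.monic.natDegree_mul hh.monic
  have hc : (g * h).coeff 0 ≠ 0 := by
    rw [mul_coeff_zero]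
    exact mul_ne_zero hg.coeff_ne hh.coeff_ne
  have := flex_big h3 (hg.monic.mul hh.monic) hc (by omega)
  rw [comp_mul hg.monic.ne_zero hh.monic.ne_zero hco] at this
  convert this using 1
  rw [dd, dd, dd, hdeg, pow_add, mul_coeff_zero]
  ring

theorem flex_rest {a : Cls F} {d : F} (h : Flex a d) (L : Multiset F[X]) (hL : ∀ g ∈ L, Tok (comp g) (dd g)) :
    Flex (a + (L.map comp).sum) (d * (L.map dd).prod) := by
  induction L using Multiset.induction generalizing a d with
  | empty => simpa using h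
  | cons g L ih =>
    have := ih (h.add (hL g (Multiset.mem_cons_self g L))) fun x hx => hL x (Multiset.mem_cons_of_mem hx)
    simpa [add_assoc, mul_assoc] using this

theorem det_sum_comp (L : Multiset F[X]) (hL : ∀ g ∈ L, g.Monic) :
    detC (L.map comp).sum = (L.map dd).prod := by
  induction L using Multiset.induction with
  | empty => simp [detC_zero]
  | cons g L ih =>
    simp [detC_add, det_comp (hL g (Multiset.mem_cons_self g L)), dd,
      ih fun x hx => hL x (Multiset.mem_cons_of_mem hx)]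

theorem com_nsmul {a : Cls F} (h : Com a 1 1) : ∀ k : ℕ, Com (k • a) 1 1
  | 0 => by rw [zero_nsmul]; exact com_zero
  | k + 1 => by
    have := (com_nsmul h k).add h
    rwa [one_mul, ← succ_nsmul] at this

theorem tok_all [Fintype F] (h4 : 4 ≤ Fintype.card F) {g : F[X]} (hg : IsBlock g) : Tok (comp g) (dd g) := by
  have := hg.deg_pos
  rcases (show g.natDegree = 1 ∨ g.natDegree = 2 ∨ 3 ≤ g.natDegree by omega) with h | h | h
  · obtain ⟨r, hr, he, hd⟩ := comp_linear hg h
    rw [he, hd]
    exact tok_sc hr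
  · rw [dd_two h]
    exact tok_plane h4 hg.monic h hg.coeff_ne
  · exact (flex_big (by omega) hg.monic hg.coeff_ne h).tok

theorem exists_good [Fintype F] (h4 : 4 ≤ Fintype.card F) : ∃ α : F, α ≠ 0 ∧ α ≠ 1 ∧ α ≠ -1 := by
  classical
  by_contra h
  push Not at h
  have hsub : (Finset.univ : Finset F) ⊆ {0, 1, -1} := fun c _ => by
    by_cases hc : c = 0
    · simp [hc]
    · by_cases hc1 : c = 1
      · simp [hc1]
      · simp [h c hc hc1]
  have h1 := (Finset.card_le_card hsub).trans Finset.card_le_three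
  rw [Finset.card_univ] at h1
  omega

/-- Any number of copies of one quadratic block. -/
theorem com_copies [Fintype F] (h4 : 4 ≤ Fintype.card F) (a : F) {d : F} (k : ℕ)
    (hdk : d ^ k = 1) : Com (k • comp (X ^ 2 - C a * X + C d)) 1 1 := by
  obtain ⟨α, hα0, hα1, hαn⟩ := exists_good h4
  set G := comp (X ^ 2 - C a * X + C d)
  have hαi : α ≠ α⁻¹ := fun he => by
    have h2 : α * α = 1 := by
      nth_rw 2 [he]
      exact mul_inv_cancel₀ hα0
    rcases mul_self_eq_one_iff.1 h2 with h | h
    · exact hα1 h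
    · exact hαn h
  by_cases hd1 : d = 1
  · subst hd1
    have hp : Prd G (sc α + sc α⁻¹) (sc α + sc (1 * α⁻¹)) :=
      prd_plane a hα0 hαi (by rw [one_mul]; exact hαi)
    rw [one_mul] at hp
    have := hp.com ((cent_sc α).add (sc α⁻¹)) one_ne_zero
    rw [detC_add, det_sc, det_sc, mul_inv_cancel₀ hα0] at this
    exact com_nsmul this k
  by_cases hd2 : d = -1
  · subst hd2
    have heven : Even k := by
      by_contra ho
      rw [(Nat.not_even_iff_odd.1 ho).neg_one_pow] at hdk
      exact hd1 hdk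
    obtain ⟨l, rfl⟩ := heven
    have h1 : Prd G (sc α + sc 1) (sc α + sc (-1 * 1)) := prd_plane a hα0 hα1 (by simpa using hαn)
    have h2 : Prd G (sc (-α⁻¹) + sc (-1)) (sc (-α⁻¹) + sc (-1 * -1)) := by
      refine prd_plane a (neg_ne_zero.2 (inv_ne_zero hα0)) (fun h => ?_) (fun h => ?_)
      · exact hα1 (inv_eq_one.1 (neg_inj.1 h))
      · rw [neg_one_mul, neg_neg, neg_eq_iff_eq_neg] at h
        exact hαn (by rw [← inv_inv α, h, inv_neg, inv_one])
    have hp := h1.add h2
    rw [mul_one, neg_one_mul, neg_neg] at hp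
    have hp' : Prd (G + G) (sc α + sc 1 + (sc (-α⁻¹) + sc (-1))) (sc α + sc 1 + (sc (-α⁻¹) + sc (-1))) := by
      convert hp using 1
      abel
    have := hp'.com (((cent_sc α).add (sc 1)).add _) one_ne_zero
    rw [detC_add, detC_add, detC_add, det_sc, det_sc, det_sc, det_sc,
      show α * 1 * (-α⁻¹ * -1) = 1 by field_simp] at this
    have h3 := com_nsmul this l
    rwa [← two_nsmul, ← mul_nsmul', mul_two] at h3
  rcases Nat.eq_zero_or_pos k with rfl | hk
  · rw [zero_nsmul]; exact com_zero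
  have hd0 : d ≠ 0 := fun h => by rw [h, zero_pow (by omega)] at hdk; exact zero_ne_one hdk
  have hd22 : d ^ 2 ≠ 1 := fun h => by
    rcases sq_eq_one_iff.1 h with h | h
    · exact hd1 h
    · exact hd2 h
  have chain : ∀ l : ℕ, ∃ r : Cls F, detC r = d ^ ((l + 1) * (l + 2)) ∧
      Prd ((l + 1) • G) (r + sc 1) (r + sc (d ^ (l + 1))) := by
    intro l
    induction l with
    | zero =>
      refine ⟨sc (d ^ 2), by rw [det_sc], ?_⟩
      rw [one_nsmul]
      have := prd_plane (β := 1) a (pow_ne_zero 2 hd0) hd22 (d := d) (by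
        rw [mul_one]
        intro h
        exact hd1 (mul_left_cancel₀ hd0 (by rw [mul_one, ← pow_two]; exact h)))
      simpa using this
    | succ l ih =>
      obtain ⟨r, hr, hp⟩ := ih
      set β := d ^ (l + 1) with hβ
      have hβ0 : β ≠ 0 := pow_ne_zero _ hd0
      have h2 : Prd G (sc (d ^ 2 * β) + sc β) (sc (d ^ 2 * β) + sc (d * β)) := by
        refine prd_plane a (mul_ne_zero (pow_ne_zero 2 hd0) hβ0) (fun h => ?_) (fun h => ?_)
        · exact hd22 (mul_right_cancel₀ hβ0 (by rw [one_mul]; exact h))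
        · exact hd1 (mul_left_cancel₀ hd0 (by rw [mul_one, ← pow_two]; exact mul_right_cancel₀ hβ0 h))
      refine ⟨r + sc (d ^ 2 * β) + sc β, ?_, ?_⟩
      · rw [detC_add, detC_add, hr, det_sc, det_sc, hβ, ← pow_add, ← pow_add, ← pow_add]
        congr 1
        ring
      · have h3 := hp.add h2
        rw [succ_nsmul]
        convert h3 using 1
        · abel
        · rw [show d ^ (l + 1 + 1) = d * β by rw [hβ, pow_succ' d (l + 1)]]
          abel
  obtain ⟨r, hr, hp⟩ := chain (k - 1)
  rw [show k - 1 + 1 = k by omega] at hp hr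
  rw [hdk] at hp
  have := hp.com ((cent_sc 1).add' r) one_ne_zero
  rwa [detC_add, det_sc, mul_one, hr, pow_mul, hdk, one_pow] at this

/-- Scalar classes. -/
theorem com_scalar [Fintype F] {r : F} (n : ℕ) (hrn : r ^ n = 1) : Com (n • sc r) 1 1 := by
  classical
  rcases Nat.eq_zero_or_pos n with rfl | hn
  · rw [zero_nsmul]; exact com_zero
  have hr0 : r ≠ 0 := fun h => by rw [h, zero_pow (by omega)] at hrn; exact zero_ne_one hrn
  set o := orderOf r with ho
  have hodvd : o ∣ n := orderOf_dvd_of_pow_eq_one hrn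
  obtain ⟨l, hl⟩ := hodvd
  have ho0 : o ≠ 0 := fun h => by rw [h, zero_mul] at hl; omega
  have hoF : (o : F) ≠ 0 := by
    obtain ⟨j, hj⟩ := orderOf_dvd_of_pow_eq_one (FiniteField.pow_card_sub_one_eq_one r hr0)
    rw [← ho] at hj
    intro h
    have h1 : ((Fintype.card F - 1 : ℕ) : F) = 0 := by rw [hj, Nat.cast_mul, h, zero_mul]
    have hc : 0 < Fintype.card F := Fintype.card_pos
    rw [Nat.cast_sub (by omega), FiniteField.cast_card_eq_zero, Nat.cast_one, zero_sub, neg_eq_zero] at h1
    exact one_ne_zero h1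
  suffices h : Com (o • sc r) 1 1 by
    rw [hl, mul_nsmul]
    exact com_nsmul h l
  set w : F := (-1) ^ (o + 1) with hw
  have hw0 : w ≠ 0 := pow_ne_zero _ (neg_ne_zero.2 one_ne_zero)
  set f := (X ^ o - C w : F[X]) with hf
  have hfm : f.Monic := monic_X_pow_sub_C w ho0
  haveI := finAdjoin hfm.ne_zero
  set g := LinearMap.mulLeft F (AdjoinRoot.root f) with hg
  set s : Module.End F (AdjoinRoot f) := r • LinearMap.id with hs
  have hfd : f.natDegree = o := natDegree_X_pow_sub_C
  have hs_cls : cls s = o • sc r := by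
    have h1 := cls_pi (M := fun _ : Fin o => F) (fun _ => (r • LinearMap.id : Module.End F F))
    rw [Finset.sum_const, Finset.card_univ, Fintype.card_fin] at h1
    rw [sc, ← h1, cls_eq_iff]
    refine ⟨((AdjoinRoot.powerBasis hfm.ne_zero).basis.reindex
      (finCongr ((AdjoinRoot.powerBasis_dim hfm.ne_zero).trans hfd))).equivFun, fun x => ?_⟩
    ext i
    simp [hs]
  have hsg : ∀ j : ℕ, (s * g) ^ j = r ^ j • g ^ j := fun j => by
    have : s * g = r • g := by
      ext x
      simp [hs, Module.End.mul_apply]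
    rw [this, _root_.smul_pow]
  have hev : ∀ p : F[X], aeval g p 1 = AdjoinRoot.mk f p := aeval_mulLeft_one
  have hcls : cls (s * g) = comp f := by
    refine cls_eq_comp_of_span _ hfm.ne_zero (finrank_adjoin hfm.ne_zero) 1 ?_ ?_
    · have h1 := hev f
      rw [AdjoinRoot.mk_self] at h1
      have h2 : aeval (s * g) (X ^ o - C w) = aeval g (X ^ o - C w) := by
        simp only [map_sub, map_pow, aeval_X, aeval_C]
        rw [hsg, ho, pow_orderOf_eq_one, one_smul]
      exact (LinearMap.congr_fun h2 1).trans h1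
    · refine eq_top_iff.2 fun x _ => ?_
      obtain ⟨p, rfl⟩ := AdjoinRoot.mk_surjective x
      rw [← hev p, aeval_eq_sum_range, LinearMap.sum_apply]
      refine Submodule.sum_mem _ fun i _ => ?_
      have : (g ^ i) 1 = (r ^ i)⁻¹ • ((s * g) ^ i) 1 := by
        rw [hsg, LinearMap.smul_apply, smul_smul, inv_mul_cancel₀ (pow_ne_zero _ hr0), one_smul]
      rw [LinearMap.smul_apply, this, smul_smul]
      exact Submodule.smul_mem _ _ (Submodule.subset_span ⟨i, rfl⟩)
  have hcls' : cls g = comp f := (comp_eq hfm.ne_zero).symm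
  have hp := Prd.mk' s g
  rw [hcls, hcls', hs_cls] at hp
  have hsep : f.Separable := separable_X_pow_sub_C w hoF hw0
  have hfu : ¬ IsUnit f := fun h => by
    have := natDegree_eq_zero_of_isUnit h
    omega
  obtain ⟨h, hh, hdvd⟩ := WfDvdMonoid.exists_irreducible_factor hfu hfm.ne_zero
  obtain ⟨rest, hrest⟩ := hdvd
  have hco : IsCoprime h rest := (hrest ▸ hsep).isCoprime
  have hr' : rest ≠ 0 := fun h0 => hfm.ne_zero (by rw [hrest, h0, mul_zero])
  have hcent : Cent (comp f) := by
    rw [hrest, comp_mul hh.ne_zero hr' hco]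
    exact (cent_comp hh).add _
  have hdet : detC (comp f) = 1 := by
    rw [det_comp hfm, hfd, hf, coeff_sub, coeff_X_pow, if_neg (Ne.symm ho0), coeff_C_zero, zero_sub, hw, pow_succ,
      mul_neg_one, neg_neg, ← mul_pow, neg_one_mul, neg_neg, one_pow]
  have := hp.com hcent one_ne_zero
  rwa [hdet] at this

theorem com_large [Fintype F] (h4 : 4 ≤ Fintype.card F) (L : Multiset F[X]) (hL : ∀ g ∈ L, IsBlock g)
    (hdet : (L.map dd).prod = 1) : Com (L.map comp).sum 1 1 := by
  classical
  have h3 : 3 ≤ Fintype.card F := by omega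
  have finish : ∀ (a : Cls F) (d : F) (L' : Multiset F[X]), Flex a d → (∀ g ∈ L', IsBlock g) →
      d * (L'.map dd).prod = 1 → Com (a + (L'.map comp).sum) 1 1 := by
    intro a d L' hf hb hd
    have := flex_rest hf L' fun g hg => tok_all h4 (hb g hg)
    rw [hd] at this
    exact this.full 1 1 one_ne_zero one_ne_zero
  by_cases hbig : ∃ g ∈ L, 3 ≤ g.natDegree
  · obtain ⟨g, hg, hd⟩ := hbig
    obtain ⟨L', rfl⟩ := Multiset.exists_cons_of_mem hg
    rw [Multiset.map_cons, Multiset.sum_cons]
    refine finish _ _ L' (flex_big h3 (hL g hg).monic (hL g hg).coeff_ne hd)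
      (fun x hx => hL x (Multiset.mem_cons_of_mem hx)) ?_
    simpa using hdet
  push Not at hbig
  have hdeg : ∀ g ∈ L, g.natDegree = 1 ∨ g.natDegree = 2 := fun g hg => by
    have := (hL g hg).deg_pos; have := hbig g hg; omega
  by_cases htwo : ∃ g ∈ L, g.natDegree = 2
  · obtain ⟨g, hg, hd⟩ := htwo
    obtain ⟨L', rfl⟩ := Multiset.exists_cons_of_mem hg
    have hgB := hL g hg
    have hL' : ∀ x ∈ L', IsBlock x := fun x hx => hL x (Multiset.mem_cons_of_mem hx)
    rw [Multiset.map_cons, Multiset.sum_cons]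
    by_cases hone : ∃ h ∈ L', h.natDegree = 1
    · obtain ⟨h, hh, hhd⟩ := hone
      obtain ⟨r, hr, he, hdd⟩ := comp_linear (hL' h hh) hhd
      obtain ⟨L'', rfl⟩ := Multiset.exists_cons_of_mem hh
      rw [Multiset.map_cons, Multiset.sum_cons, ← add_assoc, he]
      refine finish _ _ L'' (flex_pair h3 hgB.monic hgB.coeff_ne hd hr)
        (fun x hx => hL' x (Multiset.mem_cons_of_mem hx)) ?_
      simpa [hdd, mul_assoc] using hdet
    push Not at hone
    have hall : ∀ x ∈ L', x.natDegree = 2 := fun x hx =>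
      (hdeg x (Multiset.mem_cons_of_mem hx)).resolve_left (hone x hx)
    by_cases hdist : ∃ h ∈ L', IsCoprime g h
    · obtain ⟨h, hh, hco⟩ := hdist
      have hhd := hall h hh
      obtain ⟨L'', rfl⟩ := Multiset.exists_cons_of_mem hh
      rw [Multiset.map_cons, Multiset.sum_cons, ← add_assoc]
      refine finish _ _ L'' (flex_merge h3 hgB (hL' h hh) hco (by omega))
        (fun x hx => hL' x (Multiset.mem_cons_of_mem hx)) ?_
      simpa [mul_assoc] using hdet
    push Not at hdist
    have heq : L' = Multiset.replicate L'.card g := Multiset.eq_replicate_card.2 fun x hx =>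
      ((hgB.coprime_or_same (hL' x hx) (by rw [hd, hall x hx])).resolve_left (hdist x hx)).symm
    rw [heq, Multiset.map_cons, Multiset.prod_cons, Multiset.map_replicate, Multiset.prod_replicate, ← pow_succ',
      dd_two hd] at hdet
    have := com_copies h4 (-g.coeff 1) (L'.card + 1) hdet
    rw [← quad_form hgB.monic hd, succ_nsmul'] at this
    rw [heq, Multiset.map_replicate, Multiset.sum_replicate]
    exact this
  push Not at htwo
  have hone : ∀ g ∈ L, g.natDegree = 1 := fun g hg => (hdeg g hg).resolve_right (htwo g hg)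
  rcases L.empty_or_exists_mem with rfl | ⟨g, hg⟩
  · simpa using com_zero
  obtain ⟨L', rfl⟩ := Multiset.exists_cons_of_mem hg
  have hgB := hL g hg
  have hL' : ∀ x ∈ L', IsBlock x := fun x hx => hL x (Multiset.mem_cons_of_mem hx)
  have hgd := hone g hg
  obtain ⟨r, hr, he, hdd⟩ := comp_linear hgB hgd
  by_cases hdist : ∃ h ∈ L', IsCoprime g h
  · obtain ⟨h, hh, hco⟩ := hdist
    have hhB := hL' h hh
    have hhd := hone h (Multiset.mem_cons_of_mem hh)
    obtain ⟨L'', rfl⟩ := Multiset.exists_cons_of_mem hh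
    have hgh : (g * h).natDegree = 2 := by rw [hgB.monic.natDegree_mul hhB.monic, hgd, hhd]
    have hc : (g * h).coeff 0 ≠ 0 := by
      rw [mul_coeff_zero]
      exact mul_ne_zero hgB.coeff_ne hhB.coeff_ne
    have hddm : dd (g * h) = dd g * dd h := by
      rw [dd_two hgh, dd, dd, hgd, hhd, mul_coeff_zero]
      ring
    rw [Multiset.map_cons, Multiset.map_cons, Multiset.sum_cons, Multiset.sum_cons, ← add_assoc,
      ← comp_mul hgB.monic.ne_zero hhB.monic.ne_zero hco]
    rcases L''.empty_or_exists_mem with rfl | ⟨k, hk⟩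
    · rw [Multiset.map_zero, Multiset.sum_zero, add_zero, quad_form (hgB.monic.mul hhB.monic) hgh]
      have h1 : (g * h).coeff 0 = 1 := by
        rw [← dd_two hgh, hddm]
        simpa using hdet
      rw [h1]
      have := com_copies h4 (-(g * h).coeff 1) (d := 1) 1 (one_pow _)
      rwa [one_nsmul] at this
    · obtain ⟨s, hs, hse, hsd⟩ := comp_linear (hL' k (Multiset.mem_cons_of_mem hk))
        (hone k (Multiset.mem_cons_of_mem (Multiset.mem_cons_of_mem hk)))
      obtain ⟨L3, rfl⟩ := Multiset.exists_cons_of_mem hk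
      rw [Multiset.map_cons, Multiset.sum_cons, ← add_assoc, hse]
      refine finish _ _ L3 (flex_pair h3 (hgB.monic.mul hhB.monic) hc hgh hs)
        (fun x hx => hL' x (Multiset.mem_cons_of_mem (Multiset.mem_cons_of_mem hx))) ?_
      simpa [hddm, hsd, mul_assoc] using hdet
  push Not at hdist
  have heq : L' = Multiset.replicate L'.card g := Multiset.eq_replicate_card.2 fun x hx =>
    ((hgB.coprime_or_same (hL' x hx) (by rw [hgd, hone x (Multiset.mem_cons_of_mem hx)])).resolve_left
      (hdist x hx)).symm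
  rw [heq, Multiset.map_cons, Multiset.prod_cons, Multiset.map_replicate, Multiset.prod_replicate, ← pow_succ',
    hdd] at hdet
  rw [heq, Multiset.map_cons, Multiset.sum_cons, Multiset.map_replicate, Multiset.sum_replicate, he, ← succ_nsmul']
  exact com_scalar _ hdet

end CfsgLib.OreSL
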