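import Cfsg.Agent.OreSL.Small

/-!
The field with two elements.
-/

set_option autoImplicit false
set_option linter.style.haveILetI false

namespace CfsgLib.OreSL

open Polynomial

universe u

variable {F : Type u} [Field F]

section

variable (h2 : (2 : F) = 0) (hF : ∀ x : F, x ≠ 0 → x = 1)

include h2

theorem two_add_self {V : Type u} [AddCommGroup V] [Module F V] (v : V) : v + v = 0 := by
  rw [← two_smul F, h2, zero_smul]

/-- A plane transvection together with a long unipotent block. -/
theorem com_tv_jordan {h : F[X]} {e : ℕ} (he : 3 ≤ e) (hh : h = (X + C 1) ^ e) [Finite F]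
    (hroot : ∀ x : F, x ^ 2 - 1 * x + 1 ≠ 0) :
    Com (comp (X ^ 2 - C 0 * X + C 1 : F[X]) + comp h) 1 1 := by
  classical
  have hm : h.Monic := hh ▸ (monic_X_add_C 1).pow e
  have hd : h.natDegree = e := by rw [hh, natDegree_pow, natDegree_X_add_C, mul_one]
  haveI := finAdjoin hm.ne_zero
  rw [← cls_planeMap, comp_eq hm.ne_zero, add_comm, cls_add]
  set A := LinearMap.prodMap (LinearMap.mulLeft F (AdjoinRoot.root h)) (planeMap (0 : F) 1) with hA
  have hz : ∀ v : (AdjoinRoot h × (F × F)), v + v = 0 := two_add_self h2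
  have hneg : (-1 : F) = 1 := by linear_combination -h2
  let a : ℕ → (AdjoinRoot h × (F × F)) := fun i => (AdjoinRoot.root h ^ i, 0)
  let b0 : (AdjoinRoot h × (F × F)) := (0, (1, 0))
  let b1 : (AdjoinRoot h × (F × F)) := (0, (0, 1))
  let pb := AdjoinRoot.powerBasis hm.ne_zero
  have hdim : pb.dim = e := (AdjoinRoot.powerBasis_dim hm.ne_zero).trans hd
  let bas : Module.Basis (Fin e ⊕ Fin 2) F (AdjoinRoot h × (F × F)) :=
    (pb.basis.reindex (finCongr hdim)).prod (Module.Basis.finTwoProd F)
  have hbl : ∀ i : Fin e, bas (Sum.inl i) = a i := fun i =>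
    Prod.ext (((pb.basis.reindex (finCongr hdim)).prod_apply_inl_fst (Module.Basis.finTwoProd F) i).trans
      (by simp [a, pb]))
      ((pb.basis.reindex (finCongr hdim)).prod_apply_inl_snd (Module.Basis.finTwoProd F) i)
  have hb0 : bas (Sum.inr 0) = b0 :=
    Prod.ext ((pb.basis.reindex (finCongr hdim)).prod_apply_inr_fst (Module.Basis.finTwoProd F) 0)
      (((pb.basis.reindex (finCongr hdim)).prod_apply_inr_snd (Module.Basis.finTwoProd F) 0).trans (by simp [b0]))
  have hb1 : bas (Sum.inr 1) = b1 :=
    Prod.ext ((pb.basis.reindex (finCongr hdim)).prod_apply_inr_fst (Module.Basis.finTwoProd F) 1)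
      (((pb.basis.reindex (finCongr hdim)).prod_apply_inr_snd (Module.Basis.finTwoProd F) 1).trans (by simp [b1]))
  set P0 := (∑ i ∈ Finset.range (e - 1), X ^ i) + (X ^ e - h) with hP0
  have hP00 : P0.coeff 0 = 0 := by
    have hh0 : h.coeff 0 = 1 := by
      rw [hh, coeff_zero_eq_eval_zero, eval_pow, eval_add, eval_X, eval_C, zero_add, one_pow]
    simp only [hP0, coeff_add, coeff_sub, finsetSum_coeff, coeff_X_pow, hh0]
    rw [Finset.sum_ite_eq, if_pos (Finset.mem_range.2 (by omega)), if_neg (by omega : ¬ (0 = e))]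
    ring
  have hP0deg : ∀ i, e ≤ i → P0.coeff i = 0 := by
    intro i hi
    simp only [hP0, coeff_add, coeff_sub, finsetSum_coeff, coeff_X_pow]
    rw [Finset.sum_ite_eq, if_neg (by simp; omega), zero_add]
    rcases eq_or_lt_of_le hi with rfl | hlt
    · rw [if_pos rfl, ← hd, coeff_natDegree, hm.leadingCoeff, sub_self]
    · rw [if_neg (by omega), coeff_eq_zero_of_natDegree_lt (by omega), sub_zero]
  let u : (AdjoinRoot h × (F × F)) := (∑ i ∈ Finset.range (e - 1), P0.coeff (i + 1) • a i) + b1
  let s : (AdjoinRoot h × (F × F)) := ∑ i ∈ Finset.range (e - 1), a i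
  let Z : Module.End F (AdjoinRoot h × (F × F)) := bas.constr F (Sum.elim
    (fun i : Fin e => if (i : ℕ) = e - 1 then b0 else if (i : ℕ) = 0 then a 0 else a i + a (i - 1))
    ![a (e - 1) + b0 + u, b1 + a (e - 2)])
  have hZ0 : Z (a 0) = a 0 := by
    have := bas.constr_basis F (Sum.elim
      (fun i : Fin e => if (i : ℕ) = e - 1 then b0 else if (i : ℕ) = 0 then a 0 else a i + a (i - 1))
      ![a (e - 1) + b0 + u, b1 + a (e - 2)]) (Sum.inl ⟨0, by omega⟩)
    rw [hbl] at this
    rw [this]
    simp [show ¬ (0 = e - 1) by omega]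
  have hZa : ∀ i, i + 2 < e → Z (a (i + 1)) = a (i + 1) + a i := by
    intro i hi
    have := bas.constr_basis F (Sum.elim
      (fun i : Fin e => if (i : ℕ) = e - 1 then b0 else if (i : ℕ) = 0 then a 0 else a i + a (i - 1))
      ![a (e - 1) + b0 + u, b1 + a (e - 2)]) (Sum.inl ⟨i + 1, by omega⟩)
    rw [hbl] at this
    rw [this]
    simp [show ¬ (i + 1 = e - 1) by omega]
  have hZl : Z (a (e - 1)) = b0 := by
    have := bas.constr_basis F (Sum.elim
      (fun i : Fin e => if (i : ℕ) = e - 1 then b0 else if (i : ℕ) = 0 then a 0 else a i + a (i - 1))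
      ![a (e - 1) + b0 + u, b1 + a (e - 2)]) (Sum.inl ⟨e - 1, by omega⟩)
    rw [hbl] at this
    rw [this]
    simp
  have hZb0 : Z b0 = a (e - 1) + b0 + u := by
    have := bas.constr_basis F (Sum.elim
      (fun i : Fin e => if (i : ℕ) = e - 1 then b0 else if (i : ℕ) = 0 then a 0 else a i + a (i - 1))
      ![a (e - 1) + b0 + u, b1 + a (e - 2)]) (Sum.inr 0)
    rw [hb0] at this
    rw [this]
    simp
  have hZb1 : Z b1 = b1 + a (e - 2) := by
    have := bas.constr_basis F (Sum.elim
      (fun i : Fin e => if (i : ℕ) = e - 1 then b0 else if (i : ℕ) = 0 then a 0 else a i + a (i - 1))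
      ![a (e - 1) + b0 + u, b1 + a (e - 2)]) (Sum.inr 1)
    rw [hb1] at this
    rw [this]
    simp
  have hAa : ∀ i, A (a i) = a (i + 1) := fun i => by
    simp [A, a, pow_succ']
  have hAb0 : A b0 = b1 := by simp [A, b0, b1, planeMap]
  have hAb1 : A b1 = b0 := by simp [A, b0, b1, planeMap, hneg]
  have hAu : A u = s + a e + b0 := by
    have h1 : A u = (∑ i ∈ Finset.range (e - 1), P0.coeff (i + 1) • a (i + 1)) + b0 := by
      simp only [u, map_add, map_sum, map_smul, hAa, hAb1]
    have h2' : (∑ i ∈ Finset.range (e - 1), P0.coeff (i + 1) • a (i + 1)) = (AdjoinRoot.mk h P0, 0) := by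
      have hP : P0 = ∑ i ∈ Finset.range (e - 1), C (P0.coeff (i + 1)) * X ^ (i + 1) := by
        have hlt : P0.natDegree < e := by
          by_contra hc
          push Not at hc
          have h0 := hP0deg P0.natDegree hc
          rw [coeff_natDegree, leadingCoeff_eq_zero] at h0
          rw [h0, natDegree_zero] at hc
          omega
        conv_lhs => rw [as_sum_range_C_mul_X_pow' P0 hlt]
        rw [show e = (e - 1) + 1 by omega, Finset.sum_range_succ', hP00, C_0, zero_mul, add_zero,
          Nat.add_sub_cancel]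
      conv_rhs => rw [hP]
      apply Prod.ext
      · simp [a, Prod.fst_sum, AdjoinRoot.mk_X, Algebra.smul_def, AdjoinRoot.algebraMap_eq]
      · simp [a, Prod.snd_sum]
    rw [h1, h2']
    congr 1
    apply Prod.ext
    · simp [s, a, hP0, Prod.fst_sum, AdjoinRoot.mk_X]
    · simp [s, a, Prod.snd_sum]
  set N := A * Z + 1 with hN
  set M := Z + 1 with hM
  have hNa0 : N (a 0) = a 0 + a 1 := by
    show A (Z (a 0)) + a 0 = _
    rw [hZ0, hAa, add_comm]
  have hNa : ∀ i, i + 2 < e → N (a (i + 1)) = a (i + 2) := by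
    intro i hi
    show A (Z (a (i + 1))) + a (i + 1) = _
    rw [hZa i hi, map_add, hAa, hAa, add_assoc, hz, add_zero]
  have hNl : N (a (e - 1)) = b1 + a (e - 1) := by
    show A (Z (a (e - 1))) + a (e - 1) = _
    rw [hZl, hAb0]
  have hNb1 : N b1 = b0 + a (e - 1) + b1 := by
    show A (Z b1) + b1 = _
    rw [hZb1, map_add, hAb1, hAa, show e - 2 + 1 = e - 1 by omega]
  have hNb0 : N b0 = b1 + s := by
    show A (Z b0) + b0 = _
    rw [hZb0, map_add, map_add, hAa, hAb0, hAu, show e - 1 + 1 = e by omega]
    calc a e + b1 + (s + a e + b0) + b0 = b1 + s + ((a e + a e) + (b0 + b0)) := by abel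
      _ = b1 + s := by rw [hz, hz, add_zero, add_zero]
  -- powers
  have hNs : ∀ j, j < e → (N ^ j) (a 0) = ∑ i ∈ Finset.range (j + 1), a i := by
    intro j
    induction j with
    | zero => intro _; simp
    | succ j ih =>
      intro hj
      rw [pow_succ', Module.End.mul_apply, ih (by omega), map_sum, Finset.sum_range_succ', hNa0,
        Finset.sum_range_succ' _ (j + 1), Finset.sum_range_succ' (fun i => a (i + 1)) j]
      rw [Finset.sum_congr rfl fun i hi => hNa i (by have := Finset.mem_range.1 hi; omega)]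
      abel
  have hNe : (N ^ e) (a 0) = s + b1 := by
    have hs1 : (∑ i ∈ Finset.range (e - 1), N (a i)) = ∑ i ∈ Finset.range e, a i := by
      have := congrArg N (hNs (e - 2) (by omega))
      rw [← Module.End.mul_apply, ← pow_succ', map_sum, show e - 2 + 1 = e - 1 by omega,
        hNs (e - 1) (by omega), show e - 1 + 1 = e by omega] at this
      exact this.symm
    conv_lhs => rw [show e = (e - 1) + 1 by omega, pow_succ']
    rw [Module.End.mul_apply, hNs (e - 1) (by omega), show e - 1 + 1 = e by omega, map_sum]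
    conv_lhs => rw [show e = (e - 1) + 1 by omega, Finset.sum_range_succ, hs1, hNl]
    conv_lhs => arg 1; rw [show e = (e - 1) + 1 by omega, Finset.sum_range_succ]
    calc _ = s + b1 + (a (e - 1) + a (e - 1)) := by abel
      _ = s + b1 := by rw [hz, add_zero]
  have hNs' : N s = ∑ i ∈ Finset.range e, a i := by
    have := congrArg N (hNs (e - 2) (by omega))
    rw [← Module.End.mul_apply, ← pow_succ', show e - 2 + 1 = e - 1 by omega,
      hNs (e - 1) (by omega), show e - 1 + 1 = e by omega] at this
    exact this.symm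
  have hse : ∑ i ∈ Finset.range e, a i = s + a (e - 1) := by
    conv_lhs => rw [show e = (e - 1) + 1 by omega, Finset.sum_range_succ]
  have hNe1 : (N ^ (e + 1)) (a 0) = s + b1 + b0 := by
    rw [pow_succ', Module.End.mul_apply, hNe, map_add, hNs', hse, hNb1]
    calc _ = s + b1 + b0 + (a (e - 1) + a (e - 1)) := by abel
      _ = _ := by rw [hz, add_zero]
  have hNe2 : (N ^ (e + 2)) (a 0) = b0 := by
    rw [pow_succ', Module.End.mul_apply, hNe1, map_add, hNb0, map_add, hNs', hse, hNb1]
    calc _ = b0 + ((s + s) + (a (e - 1) + a (e - 1)) + (b1 + b1)) := by abel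
      _ = b0 := by simp [hz]
  set f := (X + C 1 : F[X]) ^ e * ((X + C 1) ^ 2 + (X + C 1) + C 1) with hf
  have hQ : ((X + C 1) ^ 2 + (X + C 1) + C 1 : F[X]) = X ^ 2 - C 1 * X + C 1 := by
    have h2' : (2 : F[X]) = 0 := by
      rw [← C_ofNat 2]
      simp [h2]
    simp only [C_1]
    linear_combination (2 * X + 1 : F[X]) * h2'
  have hfm : f.Monic := by
    rw [hf, hQ]
    exact ((monic_X_add_C 1).pow e).mul (quad_monic _ _)
  have hfd : f.natDegree = e + 2 := by
    rw [hf, hQ, ((monic_X_add_C 1).pow e).natDegree_mul (quad_monic _ _), natDegree_pow, natDegree_X_add_C,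
      quad_natDegree, mul_one]
  have hfr : Module.finrank F (AdjoinRoot h × (F × F)) = f.natDegree := by
    rw [hfd, Module.finrank_eq_card_basis bas]
    simp
  have hev : ∀ T : Module.End F (AdjoinRoot h × (F × F)), aeval T f = (T + 1) ^ e * ((T + 1) ^ 2 + (T + 1) + 1) := fun T => by
    simp [hf]
  have hevc : ∀ T : Module.End F (AdjoinRoot h × (F × F)), (T + 1) ^ e * ((T + 1) ^ 2 + (T + 1) + 1) =
      (T + 1) ^ (e + 2) + (T + 1) ^ (e + 1) + (T + 1) ^ e := fun T => by
    rw [mul_add, mul_add, mul_one, ← pow_add, ← pow_succ]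
  have hX : cls (A * Z) = comp f := by
    refine cls_eq_comp_of_span _ hfm.ne_zero hfr (a 0) ?_ ?_
    · rw [hev, hevc, ← hN]
      show (N ^ (e + 2)) (a 0) + (N ^ (e + 1)) (a 0) + (N ^ e) (a 0) = 0
      rw [hNe2, hNe1, hNe]
      calc _ = (s + s) + (b1 + b1) + (b0 + b0) := by abel
        _ = 0 := by simp [hz]
    · set T := Submodule.span F (Set.range fun i : ℕ => ((A * Z) ^ i) (a 0)) with hT
      have hinv : ∀ v ∈ T, N v ∈ T := by
        intro v hv
        show (A * Z) v + v ∈ T
        refine T.add_mem ?_ hv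
        have : T ≤ T.comap (A * Z) := Submodule.span_le.2 (by
          rintro _ ⟨i, rfl⟩
          exact Submodule.subset_span ⟨i + 1, LinearMap.congr_fun (pow_succ' _ i) _⟩)
        exact this hv
      have ha0 : a 0 ∈ T := Submodule.subset_span ⟨0, by simp⟩
      have hpow : ∀ j, (N ^ j) (a 0) ∈ T := by
        intro j
        induction j with
        | zero => simpa using ha0
        | succ j ih => rw [pow_succ', Module.End.mul_apply]; exact hinv _ ih
      have ha : ∀ i, i < e → a i ∈ T := by
        intro i hi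
        rcases Nat.eq_zero_or_pos i with rfl | hi0
        · exact ha0
        · have h1 := hNs i hi
          rw [Finset.sum_range_succ] at h1
          have h3 := hNs (i - 1) (by omega)
          rw [show i - 1 + 1 = i by omega] at h3
          have := T.sub_mem (h1 ▸ hpow i) (h3 ▸ hpow (i - 1))
          simpa using this
      have hsT : s ∈ T := T.sum_mem fun i hi => ha i (by have := Finset.mem_range.1 hi; omega)
      have hb1T : b1 ∈ T := by
        rw [show b1 = s + b1 - s by abel]
        exact T.sub_mem (hNe ▸ hpow e) hsT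
      have hb0T : b0 ∈ T := by
        rw [show b0 = s + b1 + b0 - (s + b1) by abel]
        exact T.sub_mem (hNe1 ▸ hpow (e + 1)) (T.add_mem hsT hb1T)
      rw [eq_top_iff, ← bas.span_eq, Submodule.span_le]
      rintro _ ⟨i, rfl⟩
      rcases i with i | i
      · rw [hbl]; exact ha i i.2
      · fin_cases i
        · exact hb0 ▸ hb0T
        · exact hb1 ▸ hb1T
  -- the map `Z`
  let W : ℕ → Submodule F (AdjoinRoot h × (F × F)) := fun j => Submodule.span F (a '' Set.Iio j)
  have hWm : ∀ {i j : ℕ}, i < j → a i ∈ W j := fun h => Submodule.subset_span ⟨_, h, rfl⟩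
  have hM0 : M (a 0) = 0 := by
    show Z (a 0) + a 0 = 0
    rw [hZ0, hz]
  have hMa : ∀ i, i + 2 < e → M (a (i + 1)) = a i := by
    intro i hi
    show Z (a (i + 1)) + a (i + 1) = _
    rw [hZa i hi, add_comm (a (i + 1)) (a i), add_assoc, hz, add_zero]
  have hMW : ∀ j, j + 1 < e → ∀ v ∈ W (j + 1), M v ∈ W j := by
    intro j hj v hv
    induction hv using Submodule.span_induction with
    | mem x hx =>
      obtain ⟨i, hi, rfl⟩ := hx
      rcases Nat.eq_zero_or_pos i with rfl | hi0
      · rw [hM0]; exact zero_mem _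
      · have hi' : i < j + 1 := hi
        obtain ⟨k, rfl⟩ : ∃ k, i = k + 1 := ⟨i - 1, by omega⟩
        rw [hMa k (by omega)]
        exact hWm (by omega)
    | zero => simp
    | add x y _ _ hx hy => simpa using add_mem hx hy
    | smul c x _ hx => simpa using (W j).smul_mem c hx
  have hMb1 : M b1 = a (e - 2) := by
    show Z b1 + b1 = _
    rw [hZb1, add_comm b1, add_assoc, hz, add_zero]
  have hWtop : ∀ j, j + 1 ≤ e → ∀ v ∈ W j, (M ^ j) v = 0 := by
    intro j
    induction j with
    | zero =>
      intro _ v hv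
      simpa [W] using hv
    | succ j ih =>
      intro hj v hv
      rw [pow_succ, Module.End.mul_apply]
      exact ih (by omega) _ (hMW j (by omega) v hv)
  have huW : u - b1 ∈ W (e - 1) := by
    simp only [u, add_sub_cancel_right]
    exact Submodule.sum_mem _ fun i hi => Submodule.smul_mem _ _ (hWm (Finset.mem_range.1 hi))
  have hv1 : (M * M + M + 1) b0 = Z u := by
    show M (M b0) + M b0 + b0 = _
    have h1 : M b0 = a (e - 1) + u := by
      show Z b0 + b0 = _
      rw [hZb0]
      calc _ = a (e - 1) + u + (b0 + b0) := by abel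
        _ = _ := by rw [hz, add_zero]
    rw [h1, map_add]
    show Z (a (e - 1)) + a (e - 1) + (Z u + u) + (a (e - 1) + u) + b0 = Z u
    rw [hZl]
    calc _ = Z u + ((b0 + b0) + (a (e - 1) + a (e - 1)) + (u + u)) := by abel
      _ = Z u := by simp [hz]
  have hZu : Z u - b1 ∈ W (e - 1) := by
    have h1 : Z u = Z (u - b1) + Z b1 := by rw [← map_add, sub_add_cancel]
    have h2' : Z (u - b1) = M (u - b1) + (u - b1) := by
      show _ = Z (u - b1) + (u - b1) + (u - b1)
      rw [add_assoc, hz, add_zero]
    rw [h1, h2', hZb1]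
    have h3 : M (u - b1) ∈ W (e - 2) := hMW (e - 2) (by omega) _ (by rw [show e - 2 + 1 = e - 1 by omega]; exact huW)
    have h4 : W (e - 2) ≤ W (e - 1) := Submodule.span_mono (Set.image_mono (Set.Iio_subset_Iio (by omega)))
    have h5 : M (u - b1) + (u - b1) + (b1 + a (e - 2)) - b1 = M (u - b1) + (u - b1) + a (e - 2) := by abel
    rw [h5]
    exact add_mem (add_mem (h4 h3) huW) (hWm (by omega))
  have hkill : (M ^ e) (Z u) = 0 := by
    have h1 : M (Z u) ∈ W (e - 1) := by
      have h2' : M (Z u) = M (Z u - b1) + a (e - 2) := by rw [map_sub, hMb1, sub_add_cancel]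
      rw [h2']
      have h3 : M (Z u - b1) ∈ W (e - 2) := hMW (e - 2) (by omega) _ (by rw [show e - 2 + 1 = e - 1 by omega]; exact hZu)
      exact add_mem ((Submodule.span_mono (Set.image_mono (Set.Iio_subset_Iio (show e - 2 ≤ e - 1 by omega)))) h3)
        (hWm (by omega))
    conv_lhs => rw [show e = (e - 1) + 1 by omega, pow_succ]
    exact hWtop (e - 1) (by omega) _ h1
  have hY : cls Z = comp f := by
    refine cls_eq_comp_of_span _ hfm.ne_zero hfr b0 ?_ ?_
    · rw [hev, ← hM, Module.End.mul_apply, pow_two, hv1, hkill]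
    · set T := Submodule.span F (Set.range fun i : ℕ => (Z ^ i) b0) with hT
      have hb0T : b0 ∈ T := Submodule.subset_span ⟨0, by simp⟩
      have hinv : ∀ v ∈ T, M v ∈ T := by
        intro v hv
        show Z v + v ∈ T
        refine T.add_mem ?_ hv
        have : T ≤ T.comap Z := Submodule.span_le.2 (by
          rintro _ ⟨i, rfl⟩
          exact Submodule.subset_span ⟨i + 1, LinearMap.congr_fun (pow_succ' _ i) _⟩)
        exact this hv
      have hZuT : Z u ∈ T := by
        rw [← hv1]
        exact add_mem (add_mem (hinv _ (hinv _ hb0T)) (hinv _ hb0T)) hb0T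
      have hstep : ∀ j, j + 1 < e → ∃ v ∈ T, v - a (e - 2 - j) ∈ W (e - 2 - j) := by
        intro j
        induction j with
        | zero =>
          intro _
          refine ⟨M (Z u), hinv _ hZuT, ?_⟩
          have h2' : M (Z u) - a (e - 2 - 0) = M (Z u - b1) := by rw [map_sub, hMb1, Nat.sub_zero]
          rw [h2', Nat.sub_zero]
          exact hMW (e - 2) (by omega) _ (by rw [show e - 2 + 1 = e - 1 by omega]; exact hZu)
        | succ j ih =>
          intro hj
          obtain ⟨v, hv, hvw⟩ := ih (by omega)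
          refine ⟨M v, hinv _ hv, ?_⟩
          obtain ⟨k, hk⟩ : ∃ k, e - 2 - j = k + 1 := ⟨e - 2 - (j + 1), by omega⟩
          rw [show e - 2 - (j + 1) = k by omega]
          rw [hk] at hvw
          have := hMW k (by omega) _ hvw
          rwa [map_sub, hMa k (by omega)] at this
      have haT : ∀ i, i + 1 < e → a i ∈ T := by
        intro i
        induction i using Nat.strong_induction_on with
        | _ i ih =>
          intro hi
          obtain ⟨v, hv, hvw⟩ := hstep (e - 2 - i) (by omega)
          rw [show e - 2 - (e - 2 - i) = i by omega] at hvw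
          have hWT : W i ≤ T := Submodule.span_le.2 (by
            rintro _ ⟨l, hl, rfl⟩
            exact ih l hl (by have := Set.mem_Iio.1 hl; omega))
          simpa using T.sub_mem hv (hWT hvw)
      have hWT : W (e - 1) ≤ T := Submodule.span_le.2 (by
        rintro _ ⟨l, hl, rfl⟩
        exact haT l (by have := Set.mem_Iio.1 hl; omega))
      have hb1T : b1 ∈ T := by simpa using T.sub_mem hZuT (hWT hZu)
      have huT : u ∈ T := by simpa using T.add_mem (hWT huW) hb1T
      have hlT : a (e - 1) ∈ T := by
        have h1 := T.sub_mem (T.sub_mem (hinv _ hb0T) huT) (T.add_mem hb0T hb0T)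
        have h3 : M b0 - u - (b0 + b0) = a (e - 1) := by
          show Z b0 + b0 - u - (b0 + b0) = _
          rw [hZb0]; abel
        rwa [h3] at h1
      rw [eq_top_iff, ← bas.span_eq, Submodule.span_le]
      rintro _ ⟨i, rfl⟩
      rcases i with i | i
      · rw [hbl]
        rcases (show (i : ℕ) + 1 < e ∨ (i : ℕ) = e - 1 by omega) with h | h
        · exact haT i h
        · rw [h]; exact hlT
      · fin_cases i
        · exact hb0 ▸ hb0T
        · exact hb1 ▸ hb1T
  have hp := Prd.mk' A Z
  rw [hX, hY] at hp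
  have hco : IsCoprime ((X + C 1 : F[X]) ^ e) (X ^ 2 - C 1 * X + C 1) := by
    have := linear_coprime_quad hroot (-1)
    rw [C_neg, sub_neg_eq_add] at this
    exact this.pow_left
  have hcent : Cent (comp f) := by
    rw [hf, hQ, comp_mul (pow_ne_zero _ (monic_X_add_C 1).ne_zero) (quad_monic _ _).ne_zero hco]
    exact (cent_comp (quad_irreducible hroot)).add' _
  have := hp.com hcent one_ne_zero
  rwa [det_comp hfm, hneg, one_pow, one_mul, hf, mul_coeff_zero, hQ, quad_coeff_zero, mul_one, coeff_zero_eq_eval_zero,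
    eval_pow, eval_add, eval_X, eval_C, zero_add, one_pow] at this

include hF


/-- The main theorem over the field with two elements. -/
theorem com_two [Finite F] (φ : ZMod 2 →+* F) (L : Multiset F[X]) (hL : ∀ g ∈ L, IsBlock g)
    (hn : (L.map natDegree).sum ≠ 2) : Com (L.map comp).sum 1 1 := by
  classical
  have hneg : (-1 : F) = 1 := by linear_combination -h2
  have hroot : ∀ x : F, x ^ 2 - 1 * x + 1 ≠ 0 := fun x => by
    rcases eq_or_ne x 0 with rfl | hx
    · simp
    · rw [hF x hx]; simp
  set Q := (X ^ 2 - C 1 * X + C 1 : F[X]) with hQdef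
  have hcentQ : Cent (comp Q) := cent_comp (quad_irreducible hroot)
  have big : ∀ {a : Cls F} {k : ℕ} {dA : F}, dA ≠ 0 → Sup a k dA → Com a 1 1 := by
    intro a k dA hdA hs
    have hf0 : (-1) ^ (k + 2) * ((X - C (1 : F)) ^ k * Q).coeff 0 = dA * ((∏ _i : Fin k, (1 : F)) * 1) := by
      rw [mul_coeff_zero, hQdef, quad_coeff_zero, coeff_zero_eq_eval_zero, eval_pow, eval_sub, eval_X, eval_C, zero_sub,
        hneg, one_pow, one_pow, hF dA hdA]
      simp
    have hmon : ((X - C (1 : F)) ^ k * Q).Monic := ((monic_X_sub_C _).pow k).mul (quad_monic _ _)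
    have hdeg : ((X - C (1 : F)) ^ k * Q).natDegree = k + 2 := by
      rw [((monic_X_sub_C _).pow k).natDegree_mul (quad_monic _ _), natDegree_pow, natDegree_X_sub_C, mul_one,
        quad_natDegree]
    have := hs (fun _ => 1) (fun _ => 1) 1 1 _ (fun _ _ => one_ne_zero) hroot hmon hdeg hf0
    rw [cls_jordan k 1 _ _ (fun _ _ => rfl) (fun _ _ => rfl),
      comp_mul (pow_ne_zero _ (X_sub_C_ne_zero _)) (quad_monic _ _).ne_zero (linear_coprime_quad hroot _).pow_left]
      at this
    have h3 := this.com (hcentQ.add' _) one_ne_zero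
    rwa [detC_add, det_comp_pow, det_comp_quad, one_pow, one_mul] at h3
  have big' : ∀ {g : F[X]}, g.Monic → g.coeff 0 ≠ 0 → 3 ≤ g.natDegree → Com (comp g) 1 1 := fun {g} hg hg0 hd =>
    big (mul_ne_zero (pow_ne_zero _ (neg_ne_zero.2 one_ne_zero)) hg0)
      (sup_big hg (show g.natDegree = (g.natDegree - 2) + 2 by omega) (by omega) hg0)
  set T := (X ^ 2 - C 0 * X + C 1 : F[X]) with hTdef
  have single : ∀ g, IsBlock g → g ≠ T → Com (comp g) 1 1 := by
    intro g hg hgT
    have := hg.deg_pos
    rcases (show g.natDegree = 1 ∨ g.natDegree = 2 ∨ 3 ≤ g.natDegree by omega) with h | h | h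
    · obtain ⟨r, hr, he, -⟩ := comp_linear hg h
      rw [he, hF r hr]
      have := Com.mk' ((1 : F) • LinearMap.id : Module.End F F) 1 1 (by ext; simp)
      rwa [map_one] at this
    · have hform := quad_form hg.monic h
      rw [hF _ hg.coeff_ne] at hform
      rcases eq_or_ne (-g.coeff 1) 0 with h1 | h1
      · exact absurd (by rw [hform, h1]) hgT
      · rw [hform, hF _ h1]
        exact com_w2 φ
    · exact big' hg.monic hg.coeff_ne h
  have copies : ∀ k : ℕ, k ≠ 1 → Com (k • comp T) 1 1 := by
    intro k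
    induction k using Nat.strong_induction_on with
    | _ k ih =>
      intro hk
      rcases (show k = 0 ∨ k = 2 ∨ k = 3 ∨ 4 ≤ k by omega) with rfl | rfl | rfl | h4
      · rw [zero_nsmul]; exact com_zero
      · rw [two_nsmul]; exact com_tt φ
      · rw [succ_nsmul', two_nsmul]; exact com_ttt φ hneg
      · have := (ih (k - 2) (by omega) (by omega)).add (com_tt φ)
        rw [one_mul, ← two_nsmul, ← add_nsmul, show k - 2 + 2 = k by omega] at this
        exact this
  have others : ∀ R : Multiset F[X], (∀ g ∈ R, IsBlock g ∧ g ≠ T) → Com (R.map comp).sum 1 1 := by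
    intro R
    induction R using Multiset.induction with
    | empty => intro _; simpa using com_zero
    | cons g R ih =>
      intro hR
      have h1 := hR g (Multiset.mem_cons_self g R)
      have := (single g h1.1 h1.2).add (ih fun x hx => hR x (Multiset.mem_cons_of_mem hx))
      rw [one_mul] at this
      simpa using this
  set LT := L.filter (fun g => g = T) with hLT
  set LO := L.filter (fun g => ¬ g = T) with hLO
  have hsplit : L = LT + LO := (Multiset.filter_add_not _ L).symm
  have hrep : LT = Multiset.replicate LT.card T := Multiset.eq_replicate_card.2 fun x hx => (Multiset.mem_filter.1 hx).2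
  have hO : ∀ g ∈ LO, IsBlock g ∧ g ≠ T := fun g hg =>
    ⟨hL g (Multiset.mem_filter.1 hg).1, (Multiset.mem_filter.1 hg).2⟩
  rw [hsplit, Multiset.map_add, Multiset.sum_add, hrep, Multiset.map_replicate, Multiset.sum_replicate]
  by_cases hone : LT.card = 1
  · rw [hone, one_nsmul]
    have hTd : T.natDegree = 2 := quad_natDegree _ _
    have hTB : IsBlock T := by
      have : T ∈ LT := by rw [hrep, hone]; simp
      exact hL T (Multiset.mem_filter.1 this).1
    have hne : LO ≠ 0 := by
      intro h0
      apply hn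
      rw [hsplit, h0, add_zero, hrep, hone]
      simp [hTd]
    obtain ⟨g, hg⟩ := Multiset.exists_mem_of_ne_zero hne
    obtain ⟨R, hR⟩ := Multiset.exists_cons_of_mem hg
    rw [hR, Multiset.map_cons, Multiset.sum_cons, ← add_assoc]
    have hRc := others R fun x hx => hO x (hR ▸ Multiset.mem_cons_of_mem hx)
    have hgB := (hO g hg).1
    have hpair : Com (comp T + comp g) 1 1 := by
      have := hgB.deg_pos
      rcases hTB.coprime_or_eq hgB with hco | ⟨p, a, b, hp, hpm, hTa, hgb⟩
      · rw [← comp_mul hTB.monic.ne_zero hgB.monic.ne_zero hco]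
        refine big' (hTB.monic.mul hgB.monic) ?_ (by rw [hTB.monic.natDegree_mul hgB.monic, hTd]; omega)
        rw [mul_coeff_zero]
        exact mul_ne_zero hTB.coeff_ne hgB.coeff_ne
      have hT1 : T = (X + C 1) ^ 2 := by
        have h2' : (2 : F[X]) = 0 := by
          rw [← C_ofNat 2]
          simp [h2]
        rw [hTdef, C_0, zero_mul, sub_zero, C_1]
        linear_combination (-X : F[X]) * h2'
      have hp1 : p = X + C 1 := by
        have hdvd : p ∣ (X + C 1) ^ 2 := by
          rw [← hT1, hTa]
          refine dvd_pow_self _ (fun ha => ?_)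
          rw [hTa, ha, pow_zero, natDegree_one] at hTd
          omega
        have := hp.prime.dvd_of_dvd_pow hdvd
        refine eq_of_monic_of_associated hpm (monic_X_add_C 1) (hp.associated_of_dvd ?_ this)
        rw [← sub_neg_eq_add, ← C_neg]
        exact irreducible_X_sub_C _
      subst hp1
      have hgd : g.natDegree = b := by rw [hgb, natDegree_pow, natDegree_X_add_C, mul_one]
      rcases (show g.natDegree = 1 ∨ g.natDegree = 2 ∨ 3 ≤ b by omega) with h | h | h
      · obtain ⟨r, hr, he, -⟩ := comp_linear hgB h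
        rw [he]
        exact big (mul_ne_zero (mul_ne_zero (pow_ne_zero _ (neg_ne_zero.2 one_ne_zero)) hTB.coeff_ne) hr)
          (sup_pair hTB.monic hTd hTB.coeff_ne hr)
      · exact absurd (by rw [hT1, hgb, show b = 2 by omega]) (hO g hg).2
      · exact com_tv_jordan h2 h hgb hroot
    simpa using hpair.add hRc
  · have := (copies _ hone).add (others LO hO)
    rwa [one_mul] at this

end

end CfsgLib.OreSL
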