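import Cfsg.Agent.OreSL.Three
import Cfsg.Agent.OreSL.Two

/-!
Ore's conjecture for the special linear groups over finite fields.
-/

set_option autoImplicit false
set_option linter.style.haveILetI false

namespace CfsgLib.OreSL

open Polynomial

universe u

theorem zmod2_units : ∀ y : ZMod 2, y ≠ 0 → y = 1 := by decide

theorem zmod3_units : ∀ y : ZMod 3, y ≠ 0 → y = 1 ∨ y = -1 := by decide

variable {F : Type u} [Field F] [Fintype F]

/-- Every element of `SL n F` is a commutator, apart from the two solvable cases. -/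
theorem sl_commutator (n : ℕ) (hn : 2 ≤ n) (hex : n = 2 → 4 ≤ Fintype.card F)
    (g : Matrix.SpecialLinearGroup (Fin n) F) :
    ∃ a b : Matrix.SpecialLinearGroup (Fin n) F, g = a * b * a⁻¹ * b⁻¹ := by
  classical
  obtain ⟨m, p, e, hp, hsum, hcls⟩ := exists_primary n (Matrix.SpecialLinearGroup.toGL g)
  let blk : Fin m → F[X] := fun i => p i ^ e i
  set L : Multiset F[X] := Finset.univ.val.map blk with hL
  have hLsum : (L.map comp).sum = ∑ i, comp (p i ^ e i) := by rw [hL, Multiset.map_map]; rfl
  have hLB : ∀ x ∈ L, IsBlock x := by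
    intro x hx
    obtain ⟨i, -, rfl⟩ := Multiset.mem_map.1 hx
    refine ⟨p i, e i, (hp i).1, (hp i).2.1, (hp i).2.2.1, fun h0 => (hp i).2.2.2 ?_, rfl⟩
    exact (eq_of_monic_of_associated monic_X (hp i).2.1
      (irreducible_X.associated_of_dvd (hp i).1 (X_dvd_iff.2 h0))).symm
  set f := Matrix.toLin' g.1 with hf
  have hclsf : cls f = (L.map comp).sum := by rw [hLsum, ← hcls]; rfl
  have hdet : (L.map dd).prod = 1 := by
    rw [← det_sum_comp L fun x hx => (hLB x hx).monic, ← hclsf, detC_cls, hf, LinearMap.det_toLin']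
    exact g.2
  have hdeg : (L.map natDegree).sum = n := by
    rw [hL, Multiset.map_map, ← hsum]
    exact congrArg Multiset.sum (Multiset.map_congr rfl fun i _ => by
      show (p i ^ e i).natDegree = _
      rw [natDegree_pow])
  have hcard : 2 ≤ Fintype.card F := Fintype.one_lt_card
  have hcom : Com (L.map comp).sum 1 1 := by
    rcases (show Fintype.card F = 2 ∨ Fintype.card F = 3 ∨ 4 ≤ Fintype.card F by omega) with hq | hq | hq
    · haveI : Fact (Nat.Prime 2) := ⟨Nat.prime_two⟩
      haveI : CharP F 2 := charP_of_card_eq_prime hq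
      let φ : ZMod 2 →+* F := ZMod.castHom dvd_rfl F
      have hφ : Function.Surjective φ :=
        ((Fintype.bijective_iff_injective_and_card φ).2 ⟨φ.injective, by rw [ZMod.card, hq]⟩).2
      have hF : ∀ x : F, x ≠ 0 → x = 1 := fun x hx => by
        obtain ⟨y, rfl⟩ := hφ x
        rw [zmod2_units y (fun h => hx (by rw [h, map_zero])), map_one]
      refine com_two (CharTwo.two_eq_zero) hF φ L hLB ?_
      rw [hdeg]
      intro h
      have := hex h
      omega
    · haveI : Fact (Nat.Prime 3) := ⟨Nat.prime_three⟩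
      haveI : CharP F 3 := charP_of_card_eq_prime hq
      let φ : ZMod 3 →+* F := ZMod.castHom dvd_rfl F
      have hφ : Function.Surjective φ :=
        ((Fintype.bijective_iff_injective_and_card φ).2 ⟨φ.injective, by rw [ZMod.card, hq]⟩).2
      have hF : ∀ x : F, x ≠ 0 → x = 1 ∨ x = -1 := fun x hx => by
        obtain ⟨y, rfl⟩ := hφ x
        rcases zmod3_units y (fun h => hx (by rw [h, map_zero])) with rfl | rfl
        · exact Or.inl (map_one φ)
        · exact Or.inr (by rw [map_neg, map_one])
      rcases full_three φ hφ hF (by omega) L hLB hdet with h0 | hfull | ⟨-, htwo⟩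
      · rw [h0]; simpa using com_zero
      · exact hfull 1 1 one_ne_zero one_ne_zero
      · rw [hdeg] at htwo
        have := hex htwo
        omega
    · exact com_large hq L hLB hdet
  obtain ⟨P, B, hP, hB, hPB⟩ := Com.exists_maps hcom f hclsf
  let a : Matrix.SpecialLinearGroup (Fin n) F := ⟨LinearMap.toMatrix' P, by rw [LinearMap.det_toMatrix']; exact hP⟩
  let b : Matrix.SpecialLinearGroup (Fin n) F := ⟨LinearMap.toMatrix' B, by rw [LinearMap.det_toMatrix']; exact hB⟩
  refine ⟨a, b, ?_⟩
  have h1 : g * b * a = a * b := by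
    apply Subtype.ext
    show g.1 * LinearMap.toMatrix' B * LinearMap.toMatrix' P = LinearMap.toMatrix' P * LinearMap.toMatrix' B
    rw [← LinearMap.toMatrix'_toLin' g.1, ← LinearMap.toMatrix'_mul, ← LinearMap.toMatrix'_mul,
      ← LinearMap.toMatrix'_mul, ← hf, hPB]
  rw [← h1]
  group

end CfsgLib.OreSL
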