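import Cfsg.Agent.OreSL.Large

/-!
Explicit small matrices for the fields with two and three elements.
-/

set_option autoImplicit false
set_option linter.style.haveILetI false

namespace CfsgLib.OreSL

open Polynomial

universe u

variable {F : Type u} [Field F]

/-- The companion matrix of `X ^ 2 - a X + d`. -/
def cm {R : Type*} [CommRing R] (a d : R) : Matrix (Fin 2) (Fin 2) R := !![0, -d; 1, a]

theorem cls_cm (a d : F) : cls (Matrix.toLin' (cm a d)) = comp (X ^ 2 - C a * X + C d) := by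
  rw [← cls_planeMap, cls_eq_iff]
  refine ⟨LinearEquiv.finTwoArrow F F, fun x => ?_⟩
  ext <;> simp [cm, planeMap, Matrix.vecMul, Matrix.mulVec, dotProduct, Fin.sum_univ_two]

theorem cls_matrix_two (M : Matrix (Fin 2) (Fin 2) F) (h : M 1 0 ≠ 0) :
    cls (Matrix.toLin' M) = comp (X ^ 2 - C M.trace * X + C M.det) := by
  refine cls_eq_comp _ (quad_monic _ _).ne_zero ?_ ![1, 0] ?_
    fun w => ⟨C (w 0 - w 1 / M 1 0 * M 0 0) + C (w 1 / M 1 0) * X, ?_⟩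
  · rw [Module.finrank_pi, Fintype.card_fin, quad_natDegree]
  · ext i
    fin_cases i <;>
      simp [pow_two, Module.End.mul_apply, Module.algebraMap_end_apply, Matrix.mulVec, dotProduct, Fin.sum_univ_two,
        Matrix.trace_fin_two, Matrix.det_fin_two] <;> ring
  · ext i
    fin_cases i
    · simp [Module.End.mul_apply, Module.algebraMap_end_apply, Matrix.mulVec, dotProduct, Fin.sum_univ_two]
    · simp [Module.End.mul_apply, Module.algebraMap_end_apply, Matrix.mulVec, dotProduct, Fin.sum_univ_two]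
      field_simp

theorem com_map {p : ℕ} {m : ℕ} (φ : ZMod p →+* F) (M P B : Matrix (Fin m) (Fin m) (ZMod p)) (h : M * B * P = P * B) :
    Com (cls (Matrix.toLin' (M.map φ))) (φ P.det) (φ B.det) := by
  rw [RingHom.map_det, RingHom.map_det, RingHom.mapMatrix_apply, RingHom.mapMatrix_apply, ← LinearMap.det_toLin',
    ← LinearMap.det_toLin']
  refine Com.mk' _ _ _ ?_
  rw [Module.End.mul_eq_comp, Module.End.mul_eq_comp, Module.End.mul_eq_comp, ← Matrix.toLin'_mul, ← Matrix.toLin'_mul,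
    ← Matrix.toLin'_mul, ← Matrix.map_mul, ← Matrix.map_mul, h, Matrix.map_mul]

/-- Two copies of a `2 × 2` companion matrix. -/
def cm2 {R : Type*} [CommRing R] (a d : R) : Matrix (Fin 4) (Fin 4) R :=
  !![0, -d, 0, 0; 1, a, 0, 0; 0, 0, 0, -d; 0, 0, 1, a]

theorem cls_cm2 (a d : F) :
    cls (Matrix.toLin' (cm2 a d)) = comp (X ^ 2 - C a * X + C d) + comp (X ^ 2 - C a * X + C d) := by
  rw [← cls_planeMap, cls_add, cls_eq_iff]
  refine ⟨{ toFun := fun x => ((x 0, x 1), (x 2, x 3))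
            invFun := fun x => ![x.1.1, x.1.2, x.2.1, x.2.2]
            map_add' := fun x y => rfl
            map_smul' := fun c x => rfl
            left_inv := fun x => by ext i; fin_cases i <;> rfl
            right_inv := fun x => rfl }, fun x => ?_⟩
  ext <;> simp [cm2, planeMap, LinearEquiv.coe_mk, LinearMap.coe_mk, AddHom.coe_mk, Matrix.vecMul, Matrix.mulVec, dotProduct, Fin.sum_univ_four] <;> rfl

/-- Three copies of the transvection of the plane over the field with two elements. -/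
def tv3 {R : Type*} [CommRing R] : Matrix (Fin 6) (Fin 6) R :=
  !![0, 1, 0, 0, 0, 0; 1, 0, 0, 0, 0, 0; 0, 0, 0, 1, 0, 0; 0, 0, 1, 0, 0, 0; 0, 0, 0, 0, 0, 1; 0, 0, 0, 0, 1, 0]

theorem cls_tv3 (h2 : (-1 : F) = 1) :
    cls (Matrix.toLin' (tv3 : Matrix (Fin 6) (Fin 6) F)) =
      comp (X ^ 2 - C 0 * X + C 1 : F[X]) + (comp (X ^ 2 - C 0 * X + C 1) + comp (X ^ 2 - C 0 * X + C 1)) := by
  rw [← cls_planeMap, cls_add, cls_add, cls_eq_iff]
  refine ⟨{ toFun := fun x => ((x 0, x 1), ((x 2, x 3), (x 4, x 5)))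
            invFun := fun x => ![x.1.1, x.1.2, x.2.1.1, x.2.1.2, x.2.2.1, x.2.2.2]
            map_add' := fun x y => rfl
            map_smul' := fun c x => rfl
            left_inv := fun x => by ext i; fin_cases i <;> rfl
            right_inv := fun x => rfl }, fun x => ?_⟩
  ext <;> simp [tv3, planeMap, LinearEquiv.coe_mk, LinearMap.coe_mk, AddHom.coe_mk, Matrix.vecMul, Matrix.mulVec, dotProduct, Fin.sum_univ_six, h2] <;> rfl

theorem map_cm {p : ℕ} (φ : ZMod p →+* F) (a d : ZMod p) : (cm a d).map φ = cm (φ a) (φ d) := by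
  ext i j; fin_cases i <;> fin_cases j <;> simp [cm]

theorem map_cm2 {p : ℕ} (φ : ZMod p →+* F) (a d : ZMod p) : (cm2 a d).map φ = cm2 (φ a) (φ d) := by
  ext i j; fin_cases i <;> fin_cases j <;> simp [cm2]

theorem map_tv3 {p : ℕ} (φ : ZMod p →+* F) : (tv3 : Matrix (Fin 6) (Fin 6) (ZMod p)).map φ = tv3 := by
  ext i j; fin_cases i <;> fin_cases j <;> simp [tv3]

/-- The three mixed determinant options over the field with three elements. -/
def Almost (a : Cls F) : Prop := Com a (-1) (-1) ∧ Com a 1 (-1) ∧ Com a (-1) 1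

theorem com_decide {p : ℕ} {m : ℕ} (φ : ZMod p →+* F) (M P B : Matrix (Fin m) (Fin m) (ZMod p)) (s t : ZMod p)
    (h : M * B * P = P * B ∧ P.det = s ∧ B.det = t) : Com (cls (Matrix.toLin' (M.map φ))) (φ s) (φ t) := by
  rw [← h.2.1, ← h.2.2]
  exact com_map φ M P B h.1

theorem almost_quad (φ : ZMod 3 →+* F) (c : ZMod 3) :
    Almost (comp (X ^ 2 - C (φ c) * X + C 1 : F[X])) := by
  suffices h : Com (cls (Matrix.toLin' ((cm c 1).map φ))) (φ 2) (φ 2) ∧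
      Com (cls (Matrix.toLin' ((cm c 1).map φ))) (φ 1) (φ 2) ∧
      Com (cls (Matrix.toLin' ((cm c 1).map φ))) (φ 2) (φ 1) by
    rw [map_cm, cls_cm, map_one φ, show (2 : ZMod 3) = -1 from rfl, map_neg φ, map_one φ] at h
    exact h
  revert c
  intro c
  fin_cases c
  · exact ⟨com_decide φ _ !![1, 0; 0, 2] !![2, 2; 1, 2] _ _ (by decide),
      com_decide φ _ !![2, 2; 2, 1] !![2, 2; 1, 2] _ _ (by decide),
      com_decide φ _ !![2, 0; 0, 1] !![1, 2; 2, 2] _ _ (by decide)⟩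
  · exact ⟨com_decide φ _ !![2, 2; 1, 2] !![2, 0; 1, 1] _ _ (by decide),
      com_decide φ _ !![0, 1; 2, 1] !![2, 0; 1, 1] _ _ (by decide),
      com_decide φ _ !![1, 1; 1, 0] !![1, 2; 1, 0] _ _ (by decide)⟩
  · exact ⟨com_decide φ _ !![2, 1; 0, 1] !![0, 2; 2, 0] _ _ (by decide),
      com_decide φ _ !![1, 2; 1, 0] !![0, 2; 2, 0] _ _ (by decide),
      com_decide φ _ !![0, 2; 2, 0] !![0, 1; 2, 1] _ _ (by decide)⟩

theorem almost_negI (φ : ZMod 3 →+* F) : Almost (sc (-1 : F) + sc (-1)) := by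
  have hcl : cls (Matrix.toLin' ((!![2, 0; 0, 2] : Matrix (Fin 2) (Fin 2) (ZMod 3)).map φ)) = sc (-1 : F) + sc (-1) := by
    rw [sc, cls_add, cls_eq_iff]
    refine ⟨LinearEquiv.finTwoArrow F F, fun x => ?_⟩
    have h2 : φ 2 = -1 := by rw [show (2 : ZMod 3) = -1 from rfl, map_neg, map_one]
    ext <;> simp [Matrix.vecMul, Matrix.mulVec, dotProduct, Fin.sum_univ_two, h2]
  rw [← hcl]
  have h : Com (cls (Matrix.toLin' ((!![2, 0; 0, 2] : Matrix (Fin 2) (Fin 2) (ZMod 3)).map φ))) (φ 2) (φ 2) ∧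
      Com (cls (Matrix.toLin' ((!![2, 0; 0, 2] : Matrix (Fin 2) (Fin 2) (ZMod 3)).map φ))) (φ 1) (φ 2) ∧
      Com (cls (Matrix.toLin' ((!![2, 0; 0, 2] : Matrix (Fin 2) (Fin 2) (ZMod 3)).map φ))) (φ 2) (φ 1) :=
    ⟨com_decide φ _ !![2, 0; 1, 1] !![1, 2; 0, 2] _ _ (by decide),
      com_decide φ _ !![2, 1; 1, 1] !![1, 2; 0, 2] _ _ (by decide),
      com_decide φ _ !![2, 1; 0, 1] !![2, 1; 1, 1] _ _ (by decide)⟩
  rw [map_one φ, show (2 : ZMod 3) = -1 from rfl, map_neg φ, map_one φ] at h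
  exact h

theorem full_double (φ : ZMod 3 →+* F) (hF : ∀ x : F, x ≠ 0 → x = 1 ∨ x = -1) (c : ZMod 3) :
    Full (comp (X ^ 2 - C (φ c) * X + C (-1) : F[X]) + comp (X ^ 2 - C (φ c) * X + C (-1))) := by
  suffices h : Com (cls (Matrix.toLin' ((cm2 c (-1)).map φ))) (φ 1) (φ 1) ∧
      Com (cls (Matrix.toLin' ((cm2 c (-1)).map φ))) (φ 1) (φ 2) ∧
      Com (cls (Matrix.toLin' ((cm2 c (-1)).map φ))) (φ 2) (φ 1) ∧
      Com (cls (Matrix.toLin' ((cm2 c (-1)).map φ))) (φ 2) (φ 2) by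
    rw [map_cm2, cls_cm2, show (2 : ZMod 3) = -1 from rfl, map_neg φ, map_one φ] at h
    intro s t hs ht
    rcases hF s hs with rfl | rfl <;> rcases hF t ht with rfl | rfl
    exacts [h.1, h.2.1, h.2.2.1, h.2.2.2]
  fin_cases c
  · exact ⟨com_decide φ _ !![1,2,2,2; 2,0,0,0; 0,0,2,0; 1,2,2,0] !![0,0,2,0; 0,2,0,1; 1,2,1,0; 0,0,2,2] _ _ (by decide),
      com_decide φ _ !![1,2,2,0; 0,1,2,2; 2,0,0,1; 0,2,1,2] !![2,0,0,0; 1,0,0,1; 0,2,0,0; 2,0,2,1] _ _ (by decide),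
      com_decide φ _ !![2,1,2,0; 2,2,0,0; 0,2,2,1; 1,2,0,1] !![0,0,2,0; 0,2,0,1; 1,2,1,0; 0,0,2,2] _ _ (by decide),
      com_decide φ _ !![1,2,0,2; 2,1,2,0; 0,0,1,0; 1,1,1,2] !![2,0,0,0; 1,0,0,1; 0,2,0,0; 2,0,2,1] _ _ (by decide)⟩
  · exact ⟨com_decide φ _ !![1,1,1,0; 0,2,1,0; 0,2,1,2; 2,0,0,0] !![0,2,1,0; 0,2,1,2; 1,2,1,0; 2,0,2,0] _ _ (by decide),
      com_decide φ _ !![0,2,2,0; 2,2,0,0; 1,0,0,0; 1,0,0,2] !![0,1,0,0; 0,0,0,1; 2,0,0,0; 0,2,2,0] _ _ (by decide),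
      com_decide φ _ !![0,0,1,0; 2,2,2,2; 1,0,2,0; 1,2,2,1] !![0,2,1,0; 0,2,1,2; 1,2,1,0; 2,0,2,0] _ _ (by decide),
      com_decide φ _ !![1,2,0,1; 2,2,1,0; 2,1,1,2; 0,0,2,2] !![0,1,0,0; 0,0,0,1; 2,0,0,0; 0,2,2,0] _ _ (by decide)⟩
  · exact ⟨com_decide φ _ !![0,0,1,2; 2,1,1,0; 0,1,0,2; 1,1,1,1] !![0,0,1,2; 1,1,2,0; 2,2,2,0; 0,2,0,0] _ _ (by decide),
      com_decide φ _ !![1,1,0,2; 1,1,0,1; 0,1,0,2; 2,0,2,2] !![0,0,0,2; 2,0,2,0; 2,0,0,2; 0,2,2,0] _ _ (by decide),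
      com_decide φ _ !![1,2,1,2; 2,0,2,0; 2,2,0,0; 0,0,0,1] !![0,0,1,0; 1,0,0,0; 2,0,0,2; 0,1,0,0] _ _ (by decide),
      com_decide φ _ !![0,1,1,0; 0,2,0,1; 2,2,0,1; 1,1,1,1] !![0,0,0,2; 2,0,2,0; 2,0,0,2; 0,2,2,0] _ _ (by decide)⟩

/-- The quadratic link over the field with three elements. -/
theorem prd_token (φ : ZMod 3 →+* F) {c : ZMod 3} (hc : c ≠ 0) :
    Prd (comp (X ^ 2 - C (φ c) * X + C (-1) : F[X])) (comp (X ^ 2 - C 0 * X + C 1))
      (comp (X ^ 2 - C (φ c) * X + C (-1))) := by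
  suffices h : ∃ Y : Matrix (Fin 2) (Fin 2) (ZMod 3), Y 1 0 ≠ 0 ∧ (cm c (-1) * Y) 1 0 ≠ 0 ∧ Y.trace = 0 ∧ Y.det = 1 ∧
      (cm c (-1) * Y).trace = c ∧ (cm c (-1) * Y).det = -1 by
    obtain ⟨Y, h1, h2, h3, h4, h5, h6⟩ := h
    have hY : cls (Matrix.toLin' (Y.map φ)) = comp (X ^ 2 - C 0 * X + C 1) := by
      rw [cls_matrix_two _ (by rw [Matrix.map_apply]; exact (map_ne_zero_iff φ φ.injective).2 h1)]
      rw [← RingHom.mapMatrix_apply, ← RingHom.map_det, h4, map_one φ]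
      rw [show (φ.mapMatrix Y).trace = φ Y.trace from (map_sum φ _ _).symm, h3, map_zero φ]
    have hX : cls (Matrix.toLin' ((cm c (-1) * Y).map φ)) = comp (X ^ 2 - C (φ c) * X + C (-1)) := by
      rw [cls_matrix_two _ (by rw [Matrix.map_apply]; exact (map_ne_zero_iff φ φ.injective).2 h2)]
      rw [← RingHom.mapMatrix_apply, ← RingHom.map_det, h6, map_neg φ, map_one φ]
      rw [show (φ.mapMatrix (cm c (-1) * Y)).trace = φ (cm c (-1) * Y).trace from (map_sum φ _ _).symm, h5]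
    have hA : cls (Matrix.toLin' ((cm c (-1)).map φ)) = comp (X ^ 2 - C (φ c) * X + C (-1)) := by
      rw [map_cm, cls_cm, map_neg φ, map_one φ]
    have := Prd.mk' (Matrix.toLin' ((cm c (-1)).map φ)) (Matrix.toLin' (Y.map φ))
    rw [Module.End.mul_eq_comp, ← Matrix.toLin'_mul, ← Matrix.map_mul, hA, hY, hX] at this
    exact this
  have h3 : ∀ c : ZMod 3, c ≠ 0 → c = 1 ∨ c = 2 := by decide
  rcases h3 c hc with rfl | rfl
  · exact ⟨!![1, 1; 1, 2], by decide⟩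
  · exact ⟨!![1, 2; 2, 2], by decide⟩

theorem com_w2 (φ : ZMod 2 →+* F) : Com (comp (X ^ 2 - C 1 * X + C 1 : F[X])) 1 1 := by
  have := com_decide φ (cm 1 1) !![1, 1; 0, 1] !![0, 1; 1, 1] 1 1 (by decide)
  rwa [map_cm, cls_cm, map_one φ] at this

theorem com_tt (φ : ZMod 2 →+* F) :
    Com (comp (X ^ 2 - C 0 * X + C 1 : F[X]) + comp (X ^ 2 - C 0 * X + C 1)) 1 1 := by
  have := com_decide φ (cm2 0 1) !![0,1,0,0; 1,1,1,0; 0,0,1,0; 0,1,1,1] !![0,0,1,1; 0,0,1,0; 0,1,0,0; 1,0,0,0] 1 1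
    (by decide)
  rwa [map_cm2, cls_cm2, map_one φ, map_zero φ] at this

theorem zmod_two_det {m : ℕ} (P Q : Matrix (Fin m) (Fin m) (ZMod 2)) (h : P * Q = 1) : P.det = 1 := by
  have h1 : P.det * Q.det = 1 := by rw [← Matrix.det_mul, h, Matrix.det_one]
  have key : ∀ x y : ZMod 2, x * y = 1 → x = 1 := by decide
  exact key _ _ h1

theorem com_ttt (φ : ZMod 2 →+* F) (h2 : (-1 : F) = 1) :
    Com (comp (X ^ 2 - C 0 * X + C 1 : F[X]) + (comp (X ^ 2 - C 0 * X + C 1) + comp (X ^ 2 - C 0 * X + C 1))) 1 1 := by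
  let P : Matrix (Fin 6) (Fin 6) (ZMod 2) :=
    !![1,1,0,0,1,0; 0,1,1,0,0,0; 1,0,1,1,0,0; 0,1,0,0,0,1; 0,1,1,0,1,1; 0,0,1,1,1,0]
  let B : Matrix (Fin 6) (Fin 6) (ZMod 2) :=
    !![0,0,0,0,0,1; 0,1,0,1,1,0; 0,1,1,0,0,0; 0,0,0,0,1,0; 0,0,0,1,0,1; 1,0,0,0,1,0]
  have := com_decide φ (tv3 : Matrix (Fin 6) (Fin 6) (ZMod 2)) P B 1 1
    ⟨by decide, zmod_two_det P (!![1,1,0,1,1,0; 1,0,1,0,0,1; 1,1,1,0,0,1; 0,0,0,1,1,1; 1,1,1,1,1,1; 1,0,1,1,0,1]) (by decide), zmod_two_det B (!![0,0,0,1,0,1; 1,1,0,1,1,0; 1,1,1,1,1,0; 1,0,0,0,1,0; 0,0,0,1,0,0; 1,0,0,0,0,0]) (by decide)⟩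
  rwa [map_tv3, cls_tv3 h2, map_one φ] at this

end CfsgLib.OreSL
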