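import Cfsg.Agent.OreSL.Small

/-!
The field with three elements.
-/

set_option autoImplicit false
set_option linter.style.haveILetI false

namespace CfsgLib.OreSL

open Polynomial

universe u

variable {F : Type u} [Field F]

theorem IsBlock.dd_pow {p : F[X]} (hp : p.Monic) (a : ℕ) : dd (p ^ a) = dd p ^ a := by
  rw [dd, dd, hp.natDegree_pow, coeff_zero_eq_eval_zero, coeff_zero_eq_eval_zero, eval_pow, mul_pow, ← pow_mul,
    mul_comm a]

theorem full_sc_one : Full (sc (1 : F)) := by
  intro s t _ _
  have h := Com.mk' (F := F) ((1 : F) • LinearMap.id : Module.End F F) (s • LinearMap.id) (t • LinearMap.id)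
    (by ext; simp [mul_comm])
  rw [LinearMap.det_smul, LinearMap.det_smul, LinearMap.det_id, Module.finrank_self, pow_one, pow_one, mul_one,
    mul_one] at h
  exact h

section

variable (hF : ∀ x : F, x ≠ 0 → x = 1 ∨ x = -1)

include hF

theorem full_of_almost {a b : Cls F} (ha : Full a) (hb : Almost b) : Full (a + b) := by
  intro s t hs ht
  have := (ha (-s) (-t) (neg_ne_zero.2 hs) (neg_ne_zero.2 ht)).add hb.1
  simpa using this

theorem almost_add {a b : Cls F} (ha : Almost a) (hb : Almost b) : Full (a + b) := by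
  intro s t hs ht
  rcases hF s hs with rfl | rfl <;> rcases hF t ht with rfl | rfl
  · simpa using ha.1.add hb.1
  · simpa using ha.1.add hb.2.2
  · simpa using ha.1.add hb.2.1
  · simpa using ha.2.1.add hb.2.2

omit hF in
theorem full_add {a b : Cls F} (ha : Full a) (hb : Full b) : Full (a + b) := by
  intro s t hs ht
  simpa using (ha s t hs ht).add (hb 1 1 one_ne_zero one_ne_zero)

omit hF in
/-- A large block linked with a quadratic one. -/
theorem full_token (φ : ZMod 3 →+* F) (hφ : Function.Surjective φ) {g h : F[X]} (hg : g.Monic) (hgd : g.natDegree = 2)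
    (hg0 : g.coeff 0 = -1) (hg1 : g.coeff 1 ≠ 0) (hh : h.Monic) (hh0 : h.coeff 0 ≠ 0) (hhd : 3 ≤ h.natDegree)
    (hhdd : dd h = -1) (hF : ∀ x : F, x ≠ 0 → x = 1 ∨ x = -1) : Full (comp g + comp h) := by
  obtain ⟨c, hc⟩ := hφ (-g.coeff 1)
  have hc0 : c ≠ 0 := fun h0 => hg1 (by rw [h0, map_zero] at hc; exact neg_eq_zero.1 hc.symm)
  have htok : Prd (comp g) (comp (X ^ 2 - C 0 * X + C 1)) (comp (X ^ 2 - C (φ c) * X + C (-1))) := by
    have := prd_token φ hc0
    conv => arg 1; rw [quad_form hg hgd, hg0, ← hc]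
    exact this
  have hQb : ∀ x : F, x ^ 2 - φ c * x + -1 ≠ 0 := fun x => by
    obtain ⟨y, rfl⟩ := hφ x
    have : ∀ c y : ZMod 3, c ≠ 0 → y ^ 2 - c * y + -1 ≠ 0 := by decide
    have := (map_ne_zero_iff φ φ.injective).2 (this c y hc0)
    simpa using this
  have hQa : ∀ x : F, x ^ 2 - 0 * x + 1 ≠ 0 := fun x => by
    obtain ⟨y, rfl⟩ := hφ x
    have : ∀ y : ZMod 3, y ^ 2 - 0 * y + 1 ≠ 0 := by decide
    have := (map_ne_zero_iff φ φ.injective).2 (this y)
    simpa using this
  intro s t hs ht
  obtain ⟨d, u, fR, hfm, hfd, hd, hcls, hdet, hco⟩ : ∃ (d u : ℕ → F) (fR : F[X]), fR.Monic ∧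
      fR.natDegree = h.natDegree - 2 ∧ (∀ i < h.natDegree - 2, d i ≠ 0) ∧
      cls (Matrix.toLin' (bidiag (h.natDegree - 2) d u)) = comp fR ∧
      detC (comp fR) = -t ∧ IsCoprime fR (X ^ 2 - C 0 * X + C 1 : F[X]) := by
    have h11 : (1 : F) ≠ -1 := by
      have := (map_ne_zero_iff φ φ.injective).2 (show (2 : ZMod 3) ≠ 0 by decide)
      rw [map_ofNat] at this
      intro he
      exact this (by linear_combination he)
    rcases hF t ht with rfl | rfl
    · refine ⟨fun i => if i < h.natDegree - 3 then 1 else -1, fun i => if i + 1 < h.natDegree - 3 then 1 else 0,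
        (X - C 1) ^ (h.natDegree - 3) * (X - C (-1)), ((monic_X_sub_C _).pow _).mul (monic_X_sub_C _), ?_,
        fun i _ => ?_, ?_, ?_, ?_⟩
      · rw [((monic_X_sub_C _).pow _).natDegree_mul (monic_X_sub_C _), natDegree_pow, natDegree_X_sub_C,
          natDegree_X_sub_C, mul_one]
        omega
      · show (if i < h.natDegree - 3 then (1 : F) else -1) ≠ 0
        split <;> norm_num
      · rw [comp_mul (pow_ne_zero _ (X_sub_C_ne_zero _)) (X_sub_C_ne_zero _)
          (isCoprime_X_sub_C_of_isUnit_sub (sub_ne_zero.2 h11).isUnit).pow_left, comp_X_sub_C,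
          show h.natDegree - 2 = h.natDegree - 3 + 1 by omega]
        exact cls_jordan_add _ _ _
      · rw [comp_mul (pow_ne_zero _ (X_sub_C_ne_zero _)) (X_sub_C_ne_zero _)
          (isCoprime_X_sub_C_of_isUnit_sub (sub_ne_zero.2 h11).isUnit).pow_left, comp_X_sub_C, detC_add,
          det_comp_pow, det_sc, one_pow, one_mul]
      · exact IsCoprime.mul_left (linear_coprime_quad hQa _).pow_left (linear_coprime_quad hQa _)
    · refine ⟨fun _ => 1, fun _ => 1, (X - C 1) ^ (h.natDegree - 2), (monic_X_sub_C _).pow _, ?_,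
        fun i _ => one_ne_zero, cls_jordan _ 1 _ _ (fun _ _ => rfl) (fun _ _ => rfl), ?_,
        (linear_coprime_quad hQa _).pow_left⟩
      · rw [natDegree_pow, natDegree_X_sub_C, mul_one]
      · rw [det_comp_pow, one_pow, neg_neg]
  set f := fR * (X ^ 2 - C 0 * X + C 1) with hf
  have hfmon : f.Monic := hfm.mul (quad_monic _ _)
  have hfdeg : f.natDegree = h.natDegree - 2 + 2 := by
    rw [hf, hfm.natDegree_mul (quad_monic _ _), hfd, quad_natDegree]
  have hcompf : comp f = comp fR + comp (X ^ 2 - C 0 * X + C 1) := comp_mul hfm.ne_zero (quad_monic _ _).ne_zero hco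
  have hf0 : (-1) ^ (h.natDegree - 2 + 2) * f.coeff 0 = dd h * ((∏ i : Fin (h.natDegree - 2), d i) * (-1)) := by
    rw [← hfdeg, ← det_comp hfmon, hcompf, detC_add, det_comp_quad, mul_one, hhdd, ← bidiag_det _ d u,
      ← LinearMap.det_toLin', ← detC_cls, hcls]
    ring
  have hbig := sup_big hh (show h.natDegree = (h.natDegree - 2) + 2 by omega) (by omega) hh0 d u (φ c) (-1) f hd hQb
    hfmon hfdeg hf0
  rw [hcls, hcompf] at hbig
  have hp := htok.add hbig
  have heq : comp (X ^ 2 - C (φ c) * X + C (-1)) + (comp fR + comp (X ^ 2 - C 0 * X + C 1)) =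
      comp (X ^ 2 - C 0 * X + C 1) + (comp fR + comp (X ^ 2 - C (φ c) * X + C (-1))) := by abel
  rw [heq] at hp
  haveI : Finite F := Finite.of_surjective φ hφ
  have := hp.com ((cent_comp (quad_irreducible hQa)).add _) hs
  rwa [detC_add, detC_add, det_comp_quad, det_comp_quad, hdet, one_mul, neg_mul_neg, mul_one] at this

end

/-- Every sum of blocks over the field with three elements is full, apart from a plane. -/
theorem full_three [Fintype F] (φ : ZMod 3 →+* F) (hφ : Function.Surjective φ)
    (hF : ∀ x : F, x ≠ 0 → x = 1 ∨ x = -1) (hcard : 3 ≤ Fintype.card F) :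
    ∀ L : Multiset F[X], (∀ g ∈ L, IsBlock g) → (L.map dd).prod = 1 →
      L = 0 ∨ Full (L.map comp).sum ∨ (Almost (L.map comp).sum ∧ (L.map natDegree).sum = 2) := by
  intro L
  induction L using Multiset.strongInductionOn with
  | ih L ih =>
    intro hL hdet
    -- combining a unit with the rest
    have finish : ∀ (U : Cls F) (du : ℕ) (R : Multiset F[X]), R < L → (L.map comp).sum = U + (R.map comp).sum →
        (L.map natDegree).sum = du + (R.map natDegree).sum → (∀ g ∈ R, IsBlock g) → (R.map dd).prod = 1 →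
        (Full U ∨ (Almost U ∧ du = 2)) →
        L = 0 ∨ Full (L.map comp).sum ∨ (Almost (L.map comp).sum ∧ (L.map natDegree).sum = 2) := by
      intro U du R hlt hsum hdeg hR hRd hU
      rcases ih R hlt hR hRd with rfl | hRF | ⟨hRA, -⟩
      · rw [hsum, hdeg]
        simpa using Or.inr hU
      · refine Or.inr (Or.inl ?_)
        rw [hsum]
        rcases hU with hU | ⟨hU, -⟩
        · exact full_add hU hRF
        · rw [add_comm]; exact full_of_almost hF hRF hU
      · refine Or.inr (Or.inl ?_)
        rw [hsum]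
        rcases hU with hU | ⟨hU, -⟩
        · exact full_of_almost hF hU hRA
        · exact almost_add hF hU hRA
    rcases L.empty_or_exists_mem with rfl | ⟨g₀, hg₀⟩
    · exact Or.inl rfl
    by_cases hone : ∃ g ∈ L, dd g = 1
    · obtain ⟨g, hg, hgd⟩ := hone
      obtain ⟨R, rfl⟩ := Multiset.exists_cons_of_mem hg
      have hgB := hL g hg
      refine finish (comp g) g.natDegree R (Multiset.lt_cons_self R g) (by simp) (by simp)
        (fun x hx => hL x (Multiset.mem_cons_of_mem hx)) (by simpa [hgd] using hdet) ?_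
      have := hgB.deg_pos
      rcases (show g.natDegree = 1 ∨ g.natDegree = 2 ∨ 3 ≤ g.natDegree by omega) with h | h | h
      · obtain ⟨r, -, he, hdd⟩ := comp_linear hgB h
        rw [hdd] at hgd
        rw [he, hgd]
        exact Or.inl full_sc_one
      · obtain ⟨c, hc⟩ := hφ (-g.coeff 1)
        rw [dd_two h] at hgd
        refine Or.inr ⟨?_, h⟩
        rw [quad_form hgB.monic h, hgd, ← hc]
        exact almost_quad φ c
      · have hf := flex_big hcard hgB.monic hgB.coeff_ne h
        rw [hgd] at hf
        exact Or.inl hf.full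
    push Not at hone
    have hneg : ∀ g ∈ L, dd g = -1 := fun g hg => (hF _ (hL g hg).dd_ne).resolve_left (hone g hg)
    have h11 : (-1 : F) ≠ 1 := fun he => by
      have h := (map_ne_zero_iff φ φ.injective).2 (show (2 : ZMod 3) ≠ 0 by decide)
      rw [map_ofNat] at h
      exact h (by linear_combination -he)
    obtain ⟨L₁, rfl⟩ := Multiset.exists_cons_of_mem hg₀
    rcases L₁.empty_or_exists_mem with rfl | ⟨h₀, hh₀⟩
    · exfalso
      simp [hneg g₀ hg₀] at hdet
      exact h11 hdet
    obtain ⟨R, rfl⟩ := Multiset.exists_cons_of_mem hh₀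
    have hlt : R < g₀ ::ₘ h₀ ::ₘ R := (Multiset.lt_cons_self R h₀).trans (Multiset.lt_cons_self _ g₀)
    have hR : ∀ x ∈ R, IsBlock x := fun x hx => hL x (Multiset.mem_cons_of_mem (Multiset.mem_cons_of_mem hx))
    have hgB := hL g₀ hg₀
    have hhm : h₀ ∈ g₀ ::ₘ h₀ ::ₘ R := Multiset.mem_cons_of_mem hh₀
    have hhB := hL h₀ hhm
    have hgd := hneg g₀ hg₀
    have hhd := hneg h₀ hhm
    refine finish (comp g₀ + comp h₀) (g₀.natDegree + h₀.natDegree) R hlt (by simp [add_assoc]) (by simp [add_assoc])
      hR (by simpa [hgd, hhd] using hdet) ?_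
    have hg1 := hgB.deg_pos
    have hh1 := hhB.deg_pos
    rcases hgB.coprime_or_eq hhB with hco | ⟨p, a, b, hp, hpm, hga, hhb⟩
    · by_cases hsum : 3 ≤ g₀.natDegree + h₀.natDegree
      · have := flex_merge hcard hgB hhB hco hsum
        rw [hgd, hhd, neg_one_mul, neg_neg] at this
        exact Or.inl this.full
      · exfalso
        obtain ⟨r, -, hgr, hr⟩ := linear_form hgB (show g₀.natDegree = 1 by omega)
        obtain ⟨r', -, hhr, hr'⟩ := linear_form hhB (show h₀.natDegree = 1 by omega)
        rw [hgd] at hr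
        rw [hhd] at hr'
        rw [hgr, hhr, ← hr, ← hr'] at hco
        exact not_isUnit_X_sub_C _ (isCoprime_self.1 hco)
    have mixed : ∀ {u v : F[X]}, IsBlock u → IsBlock v → dd u = -1 → dd v = -1 → 3 ≤ u.natDegree →
        Full (comp u + comp v) := by
      intro u v hu hv hud hvd hu3
      rcases eq_or_ne v.natDegree 2 with hv2 | hv2
      · rw [add_comm]
        have hv0 : v.coeff 0 = -1 := by rw [← dd_two hv2, hvd]
        refine full_token φ hφ hv.monic hv2 hv0 (fun h1 => ?_) hu.monic hu.coeff_ne hu3 hud hF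
        have hform := quad_form hv.monic hv2
        rw [h1, hv0, neg_zero, C_0, zero_mul, sub_zero, C_neg, C_1, ← sub_eq_add_neg] at hform
        obtain ⟨p, e, hp, hpm, -, -, rfl⟩ := hv
        have hroot : ∀ r : F, r * r = 1 → p = X - C r := fun r hr => by
          have h2 : (X - C r) ∣ p ^ e := by
            rw [hform, dvd_iff_isRoot]
            simp [pow_two, hr]
          exact (eq_of_monic_of_associated (monic_X_sub_C r) hpm
            ((irreducible_X_sub_C r).associated_of_dvd hp ((irreducible_X_sub_C r).prime.dvd_of_dvd_pow h2))).symm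
        have := (hroot 1 (one_mul 1)).symm.trans (hroot (-1) (by ring))
        exact h11 (C_injective (sub_right_injective this)).symm
      · have hf := flex_big hcard hu.monic hu.coeff_ne hu3
        have ht : Tok (comp v) (dd v) := by
          have := hv.deg_pos
          rcases (show v.natDegree = 1 ∨ 3 ≤ v.natDegree by omega) with h | h
          · obtain ⟨r, hr, he, hdd⟩ := comp_linear hv h
            rw [he, hdd]
            exact tok_sc hr
          · exact (flex_big hcard hv.monic hv.coeff_ne h).tok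
        have := hf.add ht
        rw [hud, hvd, neg_one_mul, neg_neg] at this
        exact this.full
    by_cases hg3 : 3 ≤ g₀.natDegree
    · exact Or.inl (mixed hgB hhB hgd hhd hg3)
    by_cases hh3 : 3 ≤ h₀.natDegree
    · rw [add_comm (comp g₀)]
      exact Or.inl (mixed hhB hgB hhd hgd hh3)
    have hsame : g₀.natDegree = h₀.natDegree := by
      have hp1 := hp.natDegree_pos
      have hga' : g₀.natDegree = a * p.natDegree := by rw [hga, natDegree_pow]
      have hhb' : h₀.natDegree = b * p.natDegree := by rw [hhb, natDegree_pow]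
      by_contra hne
      have hpd : p.natDegree = 1 := by
        rcases (show g₀.natDegree = 1 ∨ h₀.natDegree = 1 by omega) with h | h
        · exact Nat.eq_one_of_mul_eq_one_left (hga' ▸ h)
        · exact Nat.eq_one_of_mul_eq_one_left (hhb' ▸ h)
      rw [hpd, mul_one] at hga' hhb'
      have hsq : dd p ^ 2 = 1 := by
        have hne0 : dd p ≠ 0 := by
          intro h0
          apply hgB.dd_ne
          rw [hga, IsBlock.dd_pow hpm, h0, zero_pow (by omega)]
        rcases hF _ hne0 with h | h <;> rw [h] <;> ring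
      rcases (show a = 2 ∨ b = 2 by omega) with rfl | rfl
      · rw [hga, IsBlock.dd_pow hpm, hsq] at hgd; exact h11 hgd.symm
      · rw [hhb, IsBlock.dd_pow hpm, hsq] at hhd; exact h11 hhd.symm
    have heq : g₀ = h₀ := by
      rw [hga, hhb, natDegree_pow, natDegree_pow] at hsame
      rw [hga, hhb, Nat.eq_of_mul_eq_mul_right hp.natDegree_pos hsame]
    rcases (show g₀.natDegree = 1 ∨ g₀.natDegree = 2 by omega) with h | h
    · obtain ⟨r, -, he, hdd⟩ := comp_linear hgB h
      rw [hgd] at hdd
      rw [← heq, he, ← hdd]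
      exact Or.inr ⟨almost_negI φ, by omega⟩
    · obtain ⟨c, hc⟩ := hφ (-g₀.coeff 1)
      rw [dd_two h] at hgd
      rw [← heq, quad_form hgB.monic h, hgd, ← hc]
      exact Or.inl (full_double φ hF c)

end CfsgLib.OreSL
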